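import Cfsg.Agent.Pass3.Red

/-! Class number lemmas and the two-dimensional case. -/

set_option autoImplicit false

namespace Cfsg.Pass3

open Module Cfsg.Pass

universe u v

section Classes

variable {H : Type u} [Group H] [Finite H]

theorem classes_le_index_mul (K : Subgroup H) :
    Nat.card (ConjClasses K) ≤ K.index * Nat.card (ConjClasses H) := by
  have h1 := card_comm_eq_card_conjClasses_mul_card K
  have h2 := card_comm_eq_card_conjClasses_mul_card H
  have h3 : Nat.card {x : K × K // Commute x.1 x.2} ≤ Nat.card {x : H × H // Commute x.1 x.2} :=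
    Nat.card_le_card_of_injective (fun x => ⟨(x.1.1, x.1.2), x.2.map K.subtype⟩)
      fun x y h => Subtype.ext (Prod.ext (Subtype.ext (congrArg (·.1.1) h))
        (Subtype.ext (congrArg (·.1.2) h)))
  rw [h1, h2, ← K.index_mul_card, ← mul_assoc, mul_comm _ K.index] at h3
  exact Nat.le_of_mul_le_mul_right h3 Nat.card_pos

theorem card_le_index_mul {A C : Subgroup H} (h : ∀ a ∈ A, ∀ c ∈ C, Commute c a) :
    Nat.card A ≤ C.index * Nat.card (ConjClasses H) := by
  classical
  have := Fintype.ofFinite H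
  have h3 := card_le_mul_classes (Finset.univ.filter fun a => a ∈ A) (n := C.index) fun x => by
    rcases ((Finset.univ.filter fun a => a ∈ A).filter
      fun y => IsConj x y).eq_empty_or_nonempty with h0 | ⟨a, ha⟩
    · rw [h0]; simp
    simp only [Finset.mem_filter, Finset.mem_univ, true_and] at ha
    have h4 : (Subgroup.centralizer ({a} : Set H)).index ≤ C.index :=
      Nat.le_of_dvd (Nat.pos_of_ne_zero C.index_ne_zero_of_finite) (Subgroup.index_dvd_of_le
        fun y hy => Subgroup.mem_centralizer_singleton_iff.2 (h a ha.1 y hy))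
    rw [← card_filter_isConj] at h4
    refine le_trans (Finset.card_le_card fun y hy => ?_) h4
    simp only [Finset.mem_filter, Finset.mem_univ, true_and] at hy ⊢
    exact ha.2.symm.trans hy.2
  rwa [← Fintype.card_subtype, ← Nat.card_eq_fintype_card] at h3

theorem card_le_classes_of_orders (S : Finset ℕ) (h : ∀ m ∈ S, ∃ x : H, m ∣ orderOf x) :
    S.card ≤ Nat.card (ConjClasses H) := by
  have h1 : ∀ m : S, ∃ x : H, orderOf x = m := fun ⟨m, hm⟩ => by
    obtain ⟨x, hx⟩ := h m hm
    exact ⟨_, orderOf_pow_orderOf_div (orderOf_pos x).ne' hx⟩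
  choose f hf using h1
  rw [← Nat.card_eq_finsetCard]
  refine Nat.card_le_card_of_injective (fun m => ConjClasses.mk (f m)) fun a b hab => ?_
  obtain ⟨c, hc⟩ := isConj_iff.1 (ConjClasses.mk_eq_mk_iff_isConj.1 hab)
  exact Subtype.ext (by rw [← hf, ← hf, ← hc]; exact ((MulAut.conj c).orderOf_eq (f a)).symm)

theorem card_le_six_of_classes (h : Nat.card (ConjClasses H) ≤ 3) : Nat.card H ≤ 6 := by
  classical
  have := Fintype.ofFinite H
  have := Fintype.ofFinite (ConjClasses H)
  by_contra h2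
  have h3 : Nat.card (ConjClasses H) = 3 := by
    have := card_le_two_of_classes (H := H)
    omega
  have h4 : (Finset.univ.erase (ConjClasses.mk (1 : H))).card = 2 := by
    rw [Finset.card_erase_of_mem (Finset.mem_univ _), Finset.card_univ, ← Nat.card_eq_fintype_card,
      h3]
  obtain ⟨a, b, hab, h5⟩ := Finset.card_eq_two.1 h4
  have h6 := Finset.card_eq_sum_card_fiberwise (s := Finset.univ) (t := Finset.univ)
    (f := (ConjClasses.mk : H → _)) fun _ _ => Finset.mem_univ _
  have h7 : ∀ x : H, (Finset.univ.filter fun y => ConjClasses.mk y = ConjClasses.mk x).card =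
      (Subgroup.centralizer ({x} : Set H)).index := fun x => by
    rw [← card_filter_isConj]
    congr 1
    ext y
    simp only [Finset.mem_filter, ConjClasses.mk_eq_mk_iff_isConj, isConj_comm (g := y)]
  have h8 : ∀ x : H, ConjClasses.mk x ∈ Finset.univ.erase (ConjClasses.mk (1 : H)) →
      2 ≤ Nat.card (Subgroup.centralizer ({x} : Set H)) := fun x hx =>
    Finite.one_lt_card_iff_nontrivial.2 ⟨⟨x, Subgroup.mem_centralizer_singleton_iff.2 rfl⟩, 1,
      fun h => (Finset.mem_erase.1 hx).1 (congrArg ConjClasses.mk (congrArg Subtype.val h))⟩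
  obtain ⟨a, rfl⟩ := ConjClasses.mk_surjective a
  obtain ⟨b, rfl⟩ := ConjClasses.mk_surjective b
  have ha := h8 a (by simp [h5])
  have hb := h8 b (by simp [h5])
  rw [← Finset.add_sum_erase _ _ (Finset.mem_univ (ConjClasses.mk (1 : H))), h5,
    Finset.sum_pair hab, h7, h7, h7, Finset.card_univ, ← Nat.card_eq_fintype_card,
    show Subgroup.centralizer ({1} : Set H) = ⊤ from eq_top_iff.2 fun g _ =>
      Subgroup.mem_centralizer_singleton_iff.2 (by simp), Subgroup.index_top] at h6
  have h9 := (Subgroup.centralizer ({a} : Set H)).index_mul_card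
  have h10 := (Subgroup.centralizer ({b} : Set H)).index_mul_card
  generalize (Subgroup.centralizer ({a} : Set H)).index = i at *
  generalize (Subgroup.centralizer ({b} : Set H)).index = j at *
  generalize Nat.card (Subgroup.centralizer ({a} : Set H)) = c at *
  generalize Nat.card (Subgroup.centralizer ({b} : Set H)) = d at *
  have k1 := Nat.mul_le_mul_left i ha
  have k2 := Nat.mul_le_mul_left j hb
  rcases ha.eq_or_lt with rfl | ha <;> rcases hb.eq_or_lt with rfl | hb
  · omega
  · have := Nat.mul_le_mul_left j (show 3 ≤ d from hb)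
    omega
  · have := Nat.mul_le_mul_left i (show 3 ≤ c from ha)
    omega
  · have := Nat.mul_le_mul_left j (show 3 ≤ d from hb)
    have := Nat.mul_le_mul_left i (show 3 ≤ c from ha)
    omega

end Classes

variable {p : ℕ} [hp : Fact p.Prime] {W : Type v} [AddCommGroup W] [Module (ZMod p) W] [Finite W]
  {H : Type u} [Group H] [Finite H] {ρ : Representation (ZMod p) H W}

omit [Finite W] [Finite H] in
theorem inv_apply_apply (h : H) (v : W) : ρ h⁻¹ (ρ h v) = v := by
  rw [← Module.End.mul_apply, ← map_mul, inv_mul_cancel, map_one, Module.End.one_apply]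

omit [Finite W] [Finite H] in
theorem mul_apply' (g h : H) (v : W) : ρ (g * h) v = ρ g (ρ h v) := by
  rw [map_mul, Module.End.mul_apply]

omit [Finite W] [Finite H] in
theorem orb_apply (h : H) (v : W) : orb ρ (ρ h v) = orb ρ v := by
  ext w
  exact ⟨fun ⟨g, hg⟩ => ⟨g * h, by rw [mul_apply', hg]⟩,
    fun ⟨g, hg⟩ => ⟨g * h⁻¹, by rw [mul_apply', inv_apply_apply, hg]⟩⟩

/-- the two orbit lengths -/
theorem Tw.exists_lengths (T : Tw ρ) : ∃ a b : ℕ, a + b + 1 = p ^ finrank (ZMod p) W ∧
    (∃ v, v ≠ 0 ∧ (stab ρ v).index = a) ∧ (∃ v, v ≠ 0 ∧ (stab ρ v).index = b) ∧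
    ∀ v, v ≠ 0 → (stab ρ v).index = a ∨ (stab ρ v).index = b := by
  obtain ⟨a, b, ha, hb, -, h1, h2⟩ := T.exists_index
  refine ⟨_, _, h2, ⟨a, ha, rfl⟩, ⟨b, hb, rfl⟩, fun v hv => (h1 v hv).imp ?_ ?_⟩ <;>
  · rintro ⟨h, rfl⟩
    rw [index_stab, index_stab, orb_apply]

theorem Tw.pow_le (T : Tw ρ) : p ^ finrank (ZMod p) W ≤ 2 * Nat.card H + 1 := by
  obtain ⟨a, b, h, ⟨v, -, rfl⟩, ⟨w, -, rfl⟩, -⟩ := T.exists_lengths
  have := Nat.le_of_dvd Nat.card_pos (stab ρ v).index_dvd_card
  have := Nat.le_of_dvd Nat.card_pos (stab ρ w).index_dvd_card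
  omega

omit [Finite W] [Finite H] in
/-- of three non-zero vectors two are in one orbit -/
theorem Tw.three (T : Tw ρ) {u v w : W} (hu : u ≠ 0) (hv : v ≠ 0) (hw : w ≠ 0) :
    (∃ h, ρ h u = v) ∨ (∃ h, ρ h u = w) ∨ ∃ h, ρ h v = w := by
  obtain ⟨a, b, -, -, -, h⟩ := T.two
  have key : ∀ {c x y : W}, (∃ h, ρ h c = x) → (∃ h, ρ h c = y) → ∃ h, ρ h x = y := by
    rintro c _ _ ⟨g, rfl⟩ ⟨h, rfl⟩
    exact ⟨h * g⁻¹, by rw [mul_apply', inv_apply_apply]⟩
  rcases h u hu with h1 | h1 <;> rcases h v hv with h2 | h2 <;> rcases h w hw with h3 | h3 <;>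
    first | exact .inl (key h1 h2) | exact .inr (.inl (key h1 h3)) | exact .inr (.inr (key h2 h3))

theorem Tw.irreducible (T : Tw ρ) (U : Submodule (ZMod p) W) (hU : ∀ h, ∀ u ∈ U, ρ h u ∈ U) :
    U = ⊥ ∨ U = ⊤ := by
  by_contra hcon
  push Not at hcon
  obtain ⟨u, hu, hu0⟩ := U.ne_bot_iff.1 hcon.1
  obtain ⟨w, hw⟩ : ∃ w, w ∉ U := by simpa [eq_top_iff, SetLike.le_def] using hcon.2
  have h1 : orb ρ w = (U : Set W)ᶜ := by
    ext x
    refine ⟨fun ⟨h, hh⟩ hx => hw ?_, fun hx => ?_⟩
    · rw [← inv_apply_apply (ρ := ρ) h w, hh]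
      exact hU _ _ hx
    · rcases T.three hu0 (v := w) (w := x) (fun h => hw (h ▸ U.zero_mem))
          (fun h => hx (h ▸ U.zero_mem)) with
        ⟨h, hh⟩ | ⟨h, hh⟩ | h
      · exact absurd (hh ▸ hU h u hu) hw
      · exact absurd (hh ▸ hU h u hu) hx
      · exact h
  have h2 := (stab ρ w).index_dvd_card
  rw [index_stab, h1, Set.ncard_compl, card_eq_pow (p := p) W,
    show (U : Set W).ncard = Nat.card U from rfl, card_eq_pow (p := p) U] at h2
  have : Nontrivial W := ⟨u, 0, hu0⟩
  have : Nontrivial U := Submodule.nontrivial_iff_ne_bot.2 hcon.1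
  exact T.cop ((Nat.dvd_sub (dvd_pow_self p finrank_pos.ne')
    (dvd_pow_self p finrank_pos.ne')).trans h2)

theorem Tw.eleven_le (T : Tw ρ) (hn : 2 ≤ finrank (ZMod p) W)
    (hk : ¬ p ≤ 2 * Nat.card (ConjClasses H)) : 11 ≤ p := by
  by_contra h
  have h1 := (Nat.pow_le_pow_right hp.out.pos hn).trans T.pow_le
  have h2 := card_le_six_of_classes (H := H)
  have h3 := card_le_two_of_classes (H := H)
  have h4 := card_le_one_of_classes (H := H)
  have h5 : 0 < Nat.card (ConjClasses H) := Nat.card_pos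
  have hpp := hp.out
  have h6 : p < 11 := by omega
  interval_cases p <;> first | omega | exact absurd hpp (by norm_num)

theorem Tw.of_two (T : Tw ρ) (hn : finrank (ZMod p) W = 2) :
    p ≤ 2 * Nat.card (ConjClasses H) := by
  classical
  by_contra hk
  have hp11 := T.eleven_le hn.ge hk
  let b := Module.finBasisOfFinrankEq (ZMod p) W hn
  let X : H →* Matrix (Fin 2) (Fin 2) (ZMod p) :=
    (LinearMap.toMatrixAlgEquiv b).toMonoidHom.comp ρ
  have hX : Function.Injective X := (LinearMap.toMatrixAlgEquiv b).injective.comp T.inj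
  have h2 : (2 : ZMod p) ≠ 0 := fun h => by
    have := Nat.le_of_dvd two_pos ((ZMod.natCast_eq_zero_iff 2 p).1 h)
    omega
  have hK : (Nat.card H : ZMod p) ≠ 0 := fun h => T.cop ((ZMod.natCast_eq_zero_iff _ p).1 h)
  have hD := Dk.of_mat X hX h2 hK
  have hle := T.pow_le
  rw [hn] at hle
  have hsum := sum_cnt_le (K := H)
  have h1 := card_center_le_cnt (K := H)
  have hZ := (Subgroup.center H).index_mul_card
  have hpos := Nat.card_pos (α := Subgroup.center H)
  have hsq : 11 * p ≤ p ^ 2 := by nlinarith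
  rcases dickson_mat2 X hX h2 hK with ⟨A, hA, hi⟩ | hi | hi | hi
  · have h3 := card_le_index_mul (A := A) (C := A) fun a ha c hc => hA c hc a ha
    have h4 := A.index_mul_card
    have h5 := Nat.mul_le_mul_right (Nat.card A) hi
    have h6 := Nat.mul_le_mul_right (Nat.card (ConjClasses H)) hi
    omega
  · have h3 := hD.prime_le_cnt Nat.prime_two (by rw [hi]; norm_num)
    have h4 := hD.prime_le_cnt Nat.prime_three (by rw [hi]; norm_num)
    rw [hi] at hZ
    omega
  · have h3 := hD.four_le_cnt (by rw [hi]; norm_num)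
    have h4 := hD.prime_le_cnt Nat.prime_three (by rw [hi]; norm_num)
    rw [hi] at hZ
    omega
  · have h3 := hD.prime_le_cnt Nat.prime_two (by rw [hi]; norm_num)
    have h4 := hD.prime_le_cnt Nat.prime_three (by rw [hi]; norm_num)
    have h5 := hD.prime_le_cnt Nat.prime_five (by rw [hi]; norm_num)
    rw [hi] at hZ
    by_cases h14 : 14 ≤ p
    · have : 14 * p ≤ p ^ 2 := by nlinarith
      omega
    obtain ⟨rfl, hz⟩ : p = 11 ∧ Nat.card (Subgroup.center H) = 1 := by
      have h6 : p < 14 := by omega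
      interval_cases p <;> omega
    obtain ⟨t, ht⟩ := exists_prime_orderOf_dvd_card' (G := H) 2 (by omega)
    have ht1 : t ≠ 1 := fun h => by rw [h, orderOf_one] at ht; omega
    obtain ⟨v, hv⟩ : ∃ v, ρ t v ≠ -v := by
      by_contra h6
      push Not at h6
      refine ht1 (Subgroup.mem_bot.1 (Subgroup.card_eq_one.1 hz ▸ Subgroup.mem_center_iff.2
        fun g => T.inj (LinearMap.ext fun v => ?_)))
      rw [mul_apply', mul_apply', h6, h6, map_neg]
    have h6 : t ∈ stab ρ (ρ t v + v) := by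
      change ρ t _ = _
      rw [map_add, ← mul_apply', ← sq, ← ht, pow_orderOf_eq_one, map_one, add_comm,
        Module.End.one_apply]
    have h7 := Nat.le_of_dvd Nat.card_pos (ht ▸ (stab ρ _).orderOf_dvd_natCard h6)
    have h8 := (stab ρ (ρ t v + v)).index_mul_card
    have h9 := Nat.mul_le_mul_left (stab ρ (ρ t v + v)).index h7
    obtain ⟨a, b, h, ⟨x, -, hx⟩, ⟨y, -, hy⟩, h10⟩ := T.exists_lengths
    have := Nat.le_of_dvd Nat.card_pos (stab ρ x).index_dvd_card
    have := Nat.le_of_dvd Nat.card_pos (stab ρ y).index_dvd_card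
    have := h10 _ fun h3 => hv (eq_neg_of_add_eq_zero_left h3)
    rw [hn] at h
    omega

end Cfsg.Pass3
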