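import Cfsg.Agent.Pass3.Prim
import Cfsg.Agent.S4469

/-! Class counting in groups with a faithful character of degree at most four. -/

set_option autoImplicit false

namespace Cfsg.Pass3

open Module Cfsg.Pass

universe u v

theorem exists_perm_of_pow_sum {ι : Type*} [Fintype ι] {α β : ι → ℂ}
    (h : ∀ k : ℕ, ∑ i, α i ^ k = ∑ i, β i ^ k) : ∃ σ : Equiv.Perm ι, ∀ i, β (σ i) = α i := by
  classical
  have h1 := (linearIndependent_monoidHom (Multiplicative ℕ) ℂ).comp (powersHom ℂ)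
    (powersHom ℂ).injective
  have h2 : (∑ i, Finsupp.single (α i) (1 : ℂ)) = ∑ i, Finsupp.single (β i) 1 := by
    apply h1
    ext k
    simp [map_sum, h]
  have h3 : ∀ c, Fintype.card {i // α i = c} = Fintype.card {i // β i = c} := fun c => by
    have h4 := DFunLike.congr_fun h2 c
    simp only [Finsupp.finset_sum_apply, Finsupp.single_apply, Finset.sum_boole] at h4
    rw [Fintype.card_subtype, Fintype.card_subtype]
    exact_mod_cast h4
  exact ⟨Equiv.ofFiberEquiv fun c => Fintype.equivOfCardEq (h3 c),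
    fun i => Equiv.ofFiberEquiv_map _ i⟩

variable {G : Type u} [Group G] [Finite G] {χ : G → ℂ}

/-- simultaneous eigenvalues on an abelian subgroup -/
theorem exists_frame (hχ : IsCharacter G χ) (hf : ∀ g, χ g = χ 1 → g = 1) {A : Subgroup G}
    (hA : ∀ a ∈ A, ∀ b ∈ A, a * b = b * a) :
    ∃ l : Fin (charDegree χ) → A →* ℂˣ, (∀ a, (∀ i, l i a = 1) → a = 1) ∧
      ∀ a b : A, IsConj (a : G) b → ∃ σ : Equiv.Perm (Fin (charDegree χ)),
        ∀ i, l (σ i) a = l i b := by
  have : IsMulCommutative A := ⟨⟨fun a b => Subtype.ext (hA a a.2 b b.2)⟩⟩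
  obtain ⟨l, hl, -⟩ := (hχ.res A).exists_sum_hom
  refine ⟨l, fun a ha => Subtype.ext (hf _ ?_), fun a b hab => ?_⟩
  · exact (hl a).trans ((Finset.sum_congr rfl fun i _ =>
      congrArg Units.val ((ha i).trans (map_one _).symm)).trans (hl 1).symm)
  · obtain ⟨σ, hσ⟩ := exists_perm_of_pow_sum (α := fun i => (l i b : ℂ)) (β := fun i => l i a)
      fun k => by
        have h1 := hχ.isClassFunction.eq_of_isConj (hab.pow k)
        have h2 := hl (a ^ k)
        have h3 := hl (b ^ k)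
        simp only [SubmonoidClass.coe_pow, map_pow, Units.val_pow_eq_pow_val] at h2 h3
        rw [← h2, ← h3, h1]
    exact ⟨σ, fun i => Units.ext (hσ i)⟩

theorem card_filter_isConj_le_factorial [DecidableRel (IsConj (α := G))] (hχ : IsCharacter G χ)
    (hf : ∀ g, χ g = χ 1 → g = 1) {A : Subgroup G} (hA : ∀ a ∈ A, ∀ b ∈ A, a * b = b * a)
    {S : Finset G} (hS : ∀ a ∈ S, a ∈ A) (x : G) :
    (S.filter fun y => IsConj x y).card ≤ (charDegree χ).factorial := by
  classical
  obtain ⟨l, h1, h2⟩ := exists_frame hχ hf hA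
  rcases (S.filter fun y => IsConj x y).eq_empty_or_nonempty with h0 | ⟨a, ha⟩
  · rw [h0]; simp
  rw [Finset.mem_filter] at ha
  have h3 : ∀ y : (S.filter fun y => IsConj x y), ∃ σ : Equiv.Perm (Fin (charDegree χ)),
      ∀ i, l (σ i) ⟨a, hS a ha.1⟩ = l i ⟨y, hS y (Finset.mem_filter.1 y.2).1⟩ := fun y =>
    h2 _ _ (ha.2.symm.trans (Finset.mem_filter.1 y.2).2)
  choose σ hσ using h3
  have h4 := Fintype.card_le_of_injective σ fun y z h => Subtype.ext (Subtype.mk.inj
    (mul_inv_eq_one.1 (h1 (⟨y, hS y (Finset.mem_filter.1 y.2).1⟩ *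
      (⟨z, hS z (Finset.mem_filter.1 z.2).1⟩ : A)⁻¹) fun i => by
        rw [map_mul, map_inv, ← hσ, ← hσ, h, mul_inv_cancel])))
  rwa [Fintype.card_coe, Fintype.card_perm, Fintype.card_fin] at h4

theorem card_le_center_add (hχ : IsCharacter G χ) (hf : ∀ g, χ g = χ 1 → g = 1)
    (hd : charDegree χ ≤ 4) {D : Subgroup G} (hc : ∀ a ∈ D, ∀ b ∈ D, a * b = b * a)
    (T : Set (ConjClasses G)) (hT : ∀ a ∈ D, a ∉ Subgroup.center G → ConjClasses.mk a ∈ T) :
    Nat.card D ≤ Nat.card (Subgroup.center G) + 24 * T.ncard := by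
  classical
  have := Fintype.ofFinite G
  have h1 := card_le_mul_image (Finset.univ.filter fun a => a ∈ D ∧ a ∉ Subgroup.center G)
    (n := 24) fun x => (card_filter_isConj_le_factorial hχ hf hc
      (fun a ha => (Finset.mem_filter.1 ha).2.1) x).trans (Nat.factorial_le hd)
  have h2 : ((Finset.univ.filter fun a => a ∈ D ∧ a ∉ Subgroup.center G).image
      ConjClasses.mk).card ≤ T.ncard := by
    rw [← Set.ncard_coe_finset]
    refine Set.ncard_le_ncard fun c hc => ?_
    obtain ⟨a, ha, rfl⟩ := Finset.mem_image.1 hc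
    simp only [Finset.mem_filter, Finset.mem_univ, true_and] at ha
    exact hT a ha.1 ha.2
  have h3 : Nat.card D ≤ Nat.card (Subgroup.center G) +
      (Finset.univ.filter fun a => a ∈ D ∧ a ∉ Subgroup.center G).card := by
    rw [Nat.card_eq_fintype_card, Nat.card_eq_fintype_card, Fintype.card_subtype,
      Fintype.card_subtype]
    refine (Finset.card_le_card fun a ha => ?_).trans (Finset.card_union_le _ _)
    simp only [Finset.mem_filter, Finset.mem_univ, true_and, Finset.mem_union] at ha ⊢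
    tauto
  omega

/-- the `r`-part of the index of the centre is bounded by the number of classes of type `r` -/
theorem pow_mul_le_cnt (hχ : IsCharacter G χ) (hf : ∀ g, χ g = χ 1 → g = 1)
    (hd : charDegree χ ≤ 4) {r k b : ℕ} [hr : Fact r.Prime] (hb : ∀ j, r ^ j ∣ 24 → r ^ j ≤ b)
    (hk : r ^ k ∣ (Subgroup.center G).index) :
    r ^ k * Nat.card (Subgroup.center G) ≤ b * (Nat.card (Subgroup.center G) + 24 * cnt G r) := by
  classical
  obtain ⟨Q, hQ⟩ := Sylow.exists_subgroup_card_pow_prime (G := G ⧸ Subgroup.center G) r hk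
  have hQp : IsPGroup r Q := IsPGroup.of_card hQ
  set P := Q.comap (QuotientGroup.mk' (Subgroup.center G)) with hP
  have hZP : Subgroup.center G ≤ P := QuotientGroup.le_comap_mk' _ _
  have := Fintype.ofFinite P
  have := hQp.isNilpotent
  have hN : Group.IsNilpotent P := isNilpotent_of_ker_le_center
    ((QuotientGroup.mk' (Subgroup.center G)).subgroupComap Q) fun g hg =>
      Subgroup.mem_center_iff.2 fun y => Subtype.ext (Subgroup.mem_center_iff.1
        ((QuotientGroup.eq_one_iff (g : G)).1 (congrArg Subtype.val (MonoidHom.mem_ker.1 hg))) y)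
  obtain ⟨B, hB, hBi⟩ := Agent.S4469.exists_comm_index_dvd_factorial (isMGroup_of_isNilpotent hN)
    (hχ.res P) fun g hg => Subtype.ext (hf g hg)
  rw [charDegree_res] at hBi
  set C := Subgroup.centralizer (Subgroup.centralizer (B : Set P) : Set P) with hC
  have hBC : B ≤ C := fun x hx y hy => (hy x hx).symm
  have hCc : ∀ x ∈ C, ∀ y ∈ C, x * y = y * x := fun x hx y hy =>
    hy x fun z hz => (hx z fun w hw => hB w hw z hz)
  have hZC : (Subgroup.center G).subgroupOf P ≤ C := fun x hx y _ =>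
    Subtype.ext (Subgroup.mem_center_iff.1 hx y)
  have h1 : C.index ∣ r ^ k := by
    rw [← hQ, ← relIndex_comap_mk]
    exact Subgroup.index_dvd_of_le hZC
  obtain ⟨j, -, hj⟩ := (Nat.dvd_prime_pow hr.out).1 h1
  have h2 : C.index ≤ b := hj ▸ hb j (hj ▸ ((Subgroup.index_dvd_of_le hBC).trans hBi).trans
    (Nat.factorial_dvd_factorial hd))
  have h3 := card_le_center_add hχ hf hd (D := C.map P.subtype) (by
    rintro _ ⟨x, hx, rfl⟩ _ ⟨y, hy, rfl⟩
    rw [← map_mul, hCc x hx y hy, map_mul]) {c | typ c = r} (by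
    rintro _ ⟨a, -, rfl⟩ haZ
    obtain ⟨k, hk⟩ := IsPGroup.iff_orderOf.1 hQp ⟨_, a.2⟩
    rw [← Subgroup.orderOf_coe] at hk
    rw [Set.mem_setOf_eq, typ_mk, show orderOf (QuotientGroup.mk (P.subtype a) :
      G ⧸ Subgroup.center G) = r ^ k from hk, Nat.Prime.pow_minFac hr.out]
    rintro rfl
    exact haZ ((QuotientGroup.eq_one_iff _).1 (orderOf_eq_one_iff.1 hk)))
  rw [card_map_subtype] at h3
  have h4 := C.index_mul_card
  rw [card_comap_mk, hQ, mul_comm _ (r ^ k)] at h4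
  exact h4.ge.trans (Nat.mul_le_mul h2 h3)

/-- few powers of an element of prime power order are conjugate to it -/
theorem exists_not_isConj_pow (hχ : IsCharacter G χ) (hf : ∀ g, χ g = χ 1 → g = 1) {x : G}
    {r e : ℕ} (hr : r.Prime) (hx : orderOf x = r ^ (e + 1)) (T : Finset ℕ)
    (hT : charDegree χ < T.card) (hi : ∀ i ∈ T, ∀ j ∈ T, i ≡ j [MOD r ^ (e + 1)] → i = j) :
    ∃ j ∈ T, ¬ IsConj x (x ^ j) := by
  classical
  have := Fact.mk hr
  by_contra! hcon
  obtain ⟨l, h1, h2⟩ := exists_frame hχ hf (A := Subgroup.zpowers x) (by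
    rintro _ ⟨a, rfl⟩ _ ⟨b, rfl⟩
    exact zpow_mul_comm _ _ _)
  let y : Subgroup.zpowers x := ⟨x, Subgroup.mem_zpowers x⟩
  obtain ⟨i, hi0⟩ : ∃ i, ¬ l i y ^ r ^ e = 1 := by
    by_contra! h3
    have h4 := orderOf_dvd_of_pow_eq_one (congrArg Subtype.val
      (h1 (y ^ r ^ e) fun i => by rw [map_pow, h3]))
    rw [hx, Nat.pow_dvd_pow_iff_le_right hr.one_lt] at h4
    omega
  have h3 : orderOf (l i y) = r ^ (e + 1) := orderOf_eq_prime_pow hi0 (by
    rw [← map_pow, ← hx, show orderOf x = orderOf y from Subgroup.orderOf_coe y,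
      pow_orderOf_eq_one, map_one])
  have h4 : ∀ j : T, ∃ σ : Equiv.Perm (Fin (charDegree χ)), ∀ i, l (σ i) y = l i (y ^ (j : ℕ)) :=
    fun j => h2 y (y ^ (j : ℕ)) (hcon j j.2)
  choose σ hσ using h4
  have h5 := Fintype.card_le_of_injective (fun j : T => σ j i) fun a b h => Subtype.ext
    (hi _ a.2 _ b.2 (by
      rw [← h3, ← pow_eq_pow_iff_modEq, ← map_pow, ← map_pow, ← hσ, ← hσ]
      exact congrArg (l · y) h))
  rw [Fintype.card_coe, Fintype.card_fin] at h5
  omega

/-- counting classes by element orders -/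
theorem card_add_le_classes (S S' : Finset ℕ) (h : ∀ m ∈ S, ∃ x : G, m ∣ orderOf x)
    (hS : S' ⊆ S) (h' : ∀ m ∈ S', ∃ x y : G, orderOf x = m ∧ orderOf y = m ∧ ¬ IsConj x y) :
    S.card + S'.card ≤ Nat.card (ConjClasses G) := by
  classical
  have h1 : ∀ m : S, ∃ x : G, orderOf x = m ∧
      (m.1 ∈ S' → ∃ y : G, orderOf y = m ∧ ¬ IsConj x y) := fun ⟨m, hm⟩ => by
    by_cases h2 : m ∈ S'
    · obtain ⟨x, y, h3, h4, h5⟩ := h' m h2
      exact ⟨x, h3, fun _ => ⟨y, h4, h5⟩⟩
    · obtain ⟨x, hx⟩ := h m hm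
      exact ⟨_, orderOf_pow_orderOf_div (orderOf_pos x).ne' hx, fun h => absurd h h2⟩
  choose f hf hf' using h1
  choose g hg hg' using fun m : S' => hf' ⟨m, hS m.2⟩ m.2
  have ho : ∀ {a b : G}, ConjClasses.mk a = ConjClasses.mk b → orderOf a = orderOf b := fun hab => by
    obtain ⟨c, rfl⟩ := isConj_iff.1 (ConjClasses.mk_eq_mk_iff_isConj.1 hab)
    exact ((MulAut.conj c).orderOf_eq _).symm
  rw [← Nat.card_eq_finsetCard, ← Nat.card_eq_finsetCard, ← Nat.card_sum]
  refine Nat.card_le_card_of_injective (fun m => ConjClasses.mk (Sum.elim f g m)) ?_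
  rintro (a | a) (b | b) hab
  · exact congrArg _ (Subtype.ext (by rw [← hf, ← hf]; exact ho hab))
  · obtain rfl : a = ⟨b, hS b.2⟩ := Subtype.ext ((hf a).symm.trans ((ho hab).trans (hg b)))
    exact absurd (ConjClasses.mk_eq_mk_iff_isConj.1 hab) (hg' b)
  · obtain rfl : b = ⟨a, hS a.2⟩ := Subtype.ext ((hf b).symm.trans ((ho hab.symm).trans (hg a)))
    exact absurd (ConjClasses.mk_eq_mk_iff_isConj.1 hab.symm) (hg' a)
  · exact congrArg _ (Subtype.ext ((hg a).symm.trans ((ho hab).trans (hg b))))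

/-- two classes of elements of order `t r ^ (e + 1)` -/
theorem exists_two_classes (hχ : IsCharacter G χ) (hf : ∀ g, χ g = χ 1 → g = 1)
    (hd : charDegree χ ≤ 4) {t r e : ℕ} (hr : r.Prime) (T : Finset ℕ) (hT : 4 < T.card)
    (hi : ∀ i ∈ T, ∀ j ∈ T, i ≡ j [MOD r ^ (e + 1)] → i = j)
    (hc : ∀ i ∈ T, Nat.Coprime (t * r ^ (e + 1)) i) {x : G} (hx : t * r ^ (e + 1) ∣ orderOf x) :
    ∃ x y : G, orderOf x = t * r ^ (e + 1) ∧ orderOf y = t * r ^ (e + 1) ∧ ¬ IsConj x y := by
  have h1 := orderOf_pow_orderOf_div (orderOf_pos x).ne' hx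
  generalize x ^ (orderOf x / (t * r ^ (e + 1))) = y at h1
  have ht : t ≠ 0 := by
    rintro rfl
    exact (orderOf_pos y).ne' (h1.trans (zero_mul _))
  obtain ⟨j, hj, h2⟩ := exists_not_isConj_pow hχ hf (x := y ^ t) (e := e) hr (by
    rw [orderOf_pow_of_dvd ht (h1 ▸ Dvd.intro _ rfl), h1, Nat.mul_div_cancel_left _
      (Nat.pos_of_ne_zero ht)]) T (by omega) hi
  refine ⟨y, y ^ j, h1, (Nat.Coprime.orderOf_pow (h1 ▸ hc j hj)).trans h1, fun h => h2 ?_⟩
  rw [← pow_mul, mul_comm, pow_mul]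
  exact h.pow t

end Cfsg.Pass3
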