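import Cfsg.Agent.Pass3.Basic

/-! The orbit lengths of a coprime linear group with two orbits. -/

set_option autoImplicit false

namespace Cfsg.Pass3

open Module Cfsg.Pass

universe u v

variable {p : ℕ} [hp : Fact p.Prime] {W : Type v} [AddCommGroup W] [Module (ZMod p) W] [Finite W]
  {H : Type u} [Group H] [Finite H] {ρ : Representation (ZMod p) H W}

instance finite_dual : Finite (Module.Dual (ZMod p) W) :=
  Finite.of_injective _ DFunLike.coe_injective

theorem two_iff_sum [Fintype H] : (∃ a b : W, a ≠ 0 ∧ b ≠ 0 ∧ (∀ h, ρ h a ≠ b) ∧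
    ∀ w, w ≠ 0 → (∃ h, ρ h a = w) ∨ ∃ h, ρ h b = w) ↔
      ∑ h, p ^ finrank (ZMod p) (LinearMap.ker (ρ h - 1)) = 3 * Fintype.card H := by
  classical
  let _ : MulAction H W := MulAction.compHom W ρ
  have := Fintype.ofFinite W
  have := Fintype.ofFinite (MulAction.orbitRel.Quotient H W)
  have h1 := MulAction.sum_card_fixedBy_eq_card_orbits_mul_card_group H W
  have h2 : ∀ h : H, Fintype.card (MulAction.fixedBy W h) =
      p ^ finrank (ZMod p) (LinearMap.ker (ρ h - 1)) := fun h => by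
    rw [← card_eq_pow, ← Nat.card_eq_fintype_card]
    exact Nat.card_congr (Equiv.subtypeEquivRight fun u => by
      rw [LinearMap.mem_ker, LinearMap.sub_apply, sub_eq_zero]; rfl)
  let q : W → MulAction.orbitRel.Quotient H W := Quotient.mk''
  have hq : ∀ x y, q x = q y ↔ ∃ h, ρ h y = x := fun x y => Quotient.eq''
  have hq0 : ∀ x, q x ∈ ({q 0}ᶜ : Set _) ↔ x ≠ 0 := fun x => by
    rw [Set.mem_compl_singleton_iff, Ne, hq]
    simp [eq_comm]
  have h3 := Set.ncard_add_ncard_compl ({q 0} : Set _)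
  rw [Set.ncard_singleton, Nat.card_eq_fintype_card] at h3
  simp only [← h2]
  rw [h1, Nat.mul_right_cancel_iff Fintype.card_pos, ← h3, show 3 = 1 + 2 from rfl,
    Nat.add_left_cancel_iff, Set.ncard_eq_two]
  constructor
  · rintro ⟨a, b, ha, hb, h4, h5⟩
    refine ⟨q a, q b, fun h => let ⟨g, hg⟩ := (hq _ _).1 h.symm; h4 g hg, Set.ext fun x => ?_⟩
    obtain ⟨x, rfl⟩ := Quotient.mk''_surjective x
    refine (hq0 x).trans ⟨fun h => (h5 x h).imp (hq _ _).2 (hq _ _).2, ?_⟩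
    rintro (h | h)
    exacts [(hq0 x).1 ((show q x = q a from h) ▸ (hq0 a).2 ha),
      (hq0 x).1 ((show q x = q b from h) ▸ (hq0 b).2 hb)]
  · rintro ⟨a, b, hab, h⟩
    obtain ⟨a, rfl⟩ := Quotient.mk''_surjective a
    obtain ⟨b, rfl⟩ := Quotient.mk''_surjective b
    exact ⟨a, b, (hq0 a).1 (h ▸ .inl rfl), (hq0 b).1 (h ▸ .inr rfl),
      fun g hg => hab ((hq _ _).2 ⟨g, hg⟩).symm,
      fun w hw => (h.le ((hq0 w).2 hw)).imp (hq _ _).1 (hq _ _).1⟩

theorem Tw.dual (T : Tw ρ) : Tw ρ.dual := by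
  have := Fintype.ofFinite H
  refine ⟨fun a b h => inv_injective (T.inj (LinearMap.ext fun v => sub_eq_zero.1
    ((Module.forall_dual_apply_eq_zero_iff (ZMod p) _).1 fun l => by
      rw [map_sub]
      exact sub_eq_zero.2 (LinearMap.congr_fun (LinearMap.congr_fun h l) v)))), T.cop,
    two_iff_sum.2 ?_⟩
  rw [← two_iff_sum.1 T.two, ← Equiv.sum_comp (Equiv.inv H)]
  refine Finset.sum_congr rfl fun h _ => congrArg _ ?_
  have h1 := LinearMap.finrank_range_add_finrank_ker (ρ h - 1)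
  have h2 := LinearMap.finrank_range_add_finrank_ker (ρ h - 1).dualMap
  rw [LinearMap.finrank_range_dualMap_eq_finrank_range, Subspace.dual_finrank_eq] at h2
  rw [show ρ.dual (Equiv.inv H h) - 1 = (ρ h - 1).dualMap by ext; simp; rfl]
  omega

theorem exists_dual_fixed (cop : ¬ p ∣ Nat.card H) {v : W} (hv : v ≠ 0) :
    ∃ l, l ≠ 0 ∧ stab ρ v ≤ stab ρ.dual l := by
  have := Fintype.ofFinite (stab ρ v)
  obtain ⟨l, hl⟩ := not_forall.1 ((Module.forall_dual_apply_eq_zero_iff (ZMod p) v).not.2 hv)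
  refine ⟨∑ k : stab ρ v, ρ.dual k l, fun h => ?_, fun g hg => ?_⟩
  · have h1 := LinearMap.congr_fun h v
    rw [LinearMap.sum_apply, Finset.sum_congr rfl (g := fun _ => l v) fun k _ => by
      exact congrArg l ((stab ρ v).inv_mem k.2), Finset.sum_const, nsmul_eq_mul, Finset.card_univ,
      ← Nat.card_eq_fintype_card] at h1
    exact cop (((ZMod.natCast_eq_zero_iff _ _).1 ((mul_eq_zero.1 h1).resolve_right hl)).trans
      (Subgroup.card_subgroup_dvd_card _))
  · change ρ.dual g _ = _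
    rw [map_sum, eq_comm, ← Equiv.sum_comp (Equiv.mulLeft (⟨g, hg⟩ : stab ρ v))]
    exact Finset.sum_congr rfl fun k _ => mul_apply' g k l

theorem exists_fixed_of_dual (cop : ¬ p ∣ Nat.card H) {l : Module.Dual (ZMod p) W} (hl : l ≠ 0) :
    ∃ v, v ≠ 0 ∧ stab ρ.dual l ≤ stab ρ v := by
  have := Fintype.ofFinite (stab ρ.dual l)
  obtain ⟨v, hv⟩ := DFunLike.ne_iff.1 hl
  refine ⟨∑ k : stab ρ.dual l, ρ k v, fun h => ?_, fun g hg => ?_⟩
  · have h1 := congrArg l h
    rw [map_sum, Finset.sum_congr rfl (g := fun _ => l v) fun k _ => by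
      have h2 : l (ρ k⁻¹⁻¹ v) = l v :=
        LinearMap.congr_fun ((stab ρ.dual l).inv_mem k.2 : ρ.dual _ l = l) v
      rwa [inv_inv] at h2,
      Finset.sum_const, nsmul_eq_mul, Finset.card_univ, ← Nat.card_eq_fintype_card, map_zero] at h1
    exact cop (((ZMod.natCast_eq_zero_iff _ _).1 ((mul_eq_zero.1 h1).resolve_right hv)).trans
      (Subgroup.card_subgroup_dvd_card _))
  · change ρ g _ = _
    rw [map_sum, eq_comm, ← Equiv.sum_comp (Equiv.mulLeft (⟨g, hg⟩ : stab ρ.dual l))]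
    exact Finset.sum_congr rfl fun k _ => mul_apply' g k v

theorem Tw.exists_sum [Fintype W] (T : Tw ρ) : ∃ a b : W,
    (stab ρ a).index + (stab ρ b).index + 1 = p ^ finrank (ZMod p) W ∧ a ≠ 0 ∧ b ≠ 0 ∧
    (∀ v, v ≠ 0 → (stab ρ v).index = (stab ρ a).index ∨ (stab ρ v).index = (stab ρ b).index) ∧
    ∀ F : W → ℂ, (∀ h v, F (ρ h v) = F v) →
      ∑ v, F v = F 0 + (stab ρ a).index * F a + (stab ρ b).index * F b := by
  classical
  obtain ⟨a, b, ha, hb, h1, h2, h3⟩ := T.exists_index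
  refine ⟨a, b, h3, ha, hb, fun v hv => (h2 v hv).imp ?_ ?_, fun F hF => ?_⟩
  iterate 2
    rintro ⟨h, rfl⟩
    rw [index_stab, index_stab, orb_apply]
  have h4 : ∀ c, ∑ v ∈ Finset.univ.filter (· ∈ orb ρ c), F v = (stab ρ c).index * F c := fun c => by
    rw [Finset.sum_congr rfl (g := fun _ => F c) fun v hv => by
      obtain ⟨h, rfl⟩ := (Finset.mem_filter.1 hv).2
      exact hF h c, Finset.sum_const, nsmul_eq_mul, index_stab, ← Set.ncard_coe_finset]
    simp
  rw [← h4, ← h4, add_assoc, ← Finset.sum_union (Finset.disjoint_filter.2 fun w _ ⟨g, hg⟩ ⟨h, hh⟩ =>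
    h1 (h⁻¹ * g) (by rw [mul_apply', hg, ← hh, inv_apply_apply])),
    ← Finset.add_sum_erase _ _ (Finset.mem_univ 0)]
  congr 2
  ext w
  simp only [Finset.mem_erase, Finset.mem_univ, and_true, Finset.mem_union, Finset.mem_filter,
    true_and]
  refine ⟨h2 w, ?_⟩
  rintro (⟨h, rfl⟩ | ⟨h, rfl⟩)
  exacts [apply_ne_zero h ha, apply_ne_zero h hb]

theorem fourier_arith {a b n : ℕ} {r s : ℤ} (ha : 0 < a) (hb : 0 < b) (h : a + b + 1 = p ^ n)
    (h1 : a + a * r + b * s = 0) (h2 : a ^ 2 + a * r ^ 2 + b * s ^ 2 = p ^ n * a) :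
    ∃ d, n = 2 * d ∧ ((p ^ d + 1 ∣ a ∧ p ^ d + 1 ∣ b) ∨ (p ^ d - 1 ∣ a ∧ p ^ d - 1 ∣ b)) := by
  have h' : (a : ℤ) + b + 1 = p ^ n := by exact_mod_cast h
  have ha' : (a : ℤ) ≠ 0 := by omega
  have hb' : (b : ℤ) ≠ 0 := by omega
  have h3 : (b : ℤ) * r ^ 2 + a * (1 + r) ^ 2 = b ^ 2 + b := mul_left_cancel₀ ha' (by
    rw [← h'] at h2
    linear_combination b * h2 + (a + a * r - b * s) * h1)
  have h4 : (r - s) ^ 2 = p ^ n := mul_left_cancel₀ (pow_ne_zero 2 hb') (by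
    rw [← h']
    linear_combination (a + b) * h3 + (b * s - 2 * b * r - a - a * r) * h1)
  have h5 : (r - s).natAbs ^ 2 = p ^ n := by
    rw [← Int.natAbs_pow, h4, Int.natAbs_pow, Int.natAbs_natCast]
  obtain ⟨d, -, hd⟩ := (Nat.dvd_prime_pow hp.out).1 (h5 ▸ dvd_pow_self _ two_ne_zero :
    (r - s).natAbs ∣ p ^ n)
  rw [hd, ← pow_mul, mul_comm] at h5
  obtain rfl := Nat.pow_right_injective hp.out.two_le h5
  refine ⟨d, rfl, ?_⟩
  rw [pow_mul'] at h h'
  have h6 : 1 ≤ p ^ d := Nat.one_le_pow _ _ hp.out.pos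
  have h7 : ((p ^ d : ℕ) : ℤ) = p ^ d := by push_cast; rfl
  rw [← h7] at h'
  generalize p ^ d = q at *
  obtain ⟨q, rfl⟩ : ∃ m, q = m + 1 := ⟨q - 1, by omega⟩
  have hq : (q : ℤ) ≠ 0 := by
    rintro h0
    rw [show q = 0 by omega] at h
    omega
  rw [Nat.add_sub_cancel, ← Int.natCast_dvd_natCast, ← Int.natCast_dvd_natCast,
    ← Int.natCast_dvd_natCast (m := q), ← Int.natCast_dvd_natCast (m := q)]
  push_cast at h' ⊢
  rcases Int.natAbs_eq_iff.1 hd with h8 | h8 <;> push_cast at h8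
  · have h9 : (a : ℤ) = q * -s := mul_left_cancel₀ (show (q : ℤ) + 2 ≠ 0 by omega) (by
      linear_combination h1 - a * h8 - s * h')
    exact .inr ⟨⟨_, h9⟩, q + 2 + s, by linear_combination h' - h9⟩
  · have h9 : (a : ℤ) = (q + 1 + 1) * s := mul_left_cancel₀ hq (by
      linear_combination -h1 + a * h8 + s * h')
    exact .inl ⟨⟨_, h9⟩, q - s, by linear_combination h' - h9⟩

theorem Tw.scalar_or (T : Tw ρ) :
    (∀ v, v ≠ 0 → 2 * (stab ρ v).index + 1 = p ^ finrank (ZMod p) W) ∨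
      ∀ c : ZMod p, c ≠ 0 → ∀ v, v ≠ 0 → ∃ h, ρ h v = c • v := by
  refine or_iff_not_imp_right.2 fun h => ?_
  push Not at h
  obtain ⟨c, hc, v, hv, h⟩ := h
  have h1 : stab ρ (c • v) = stab ρ v := Subgroup.ext fun g => by
    change ρ g _ = _ ↔ ρ g _ = _
    rw [map_smul, (smul_right_injective W hc).eq_iff]
  obtain ⟨a, b, ha, hb, -, h2, h3⟩ := T.exists_index
  have h4 : ∀ {x y : W}, (∃ h, ρ h x = y) → (stab ρ x).index = (stab ρ y).index := by
    rintro x _ ⟨g, rfl⟩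
    rw [index_stab, index_stab, orb_apply]
  have h5 : ∀ {x : W}, (∃ h, ρ h x = v) → ¬ ∃ h, ρ h x = c • v := by
    rintro x ⟨g, rfl⟩ ⟨k, hk⟩
    exact h (k * g⁻¹) (by rw [mul_apply', inv_apply_apply, hk])
  have h6 : (stab ρ a).index = (stab ρ b).index := by
    rcases h2 v hv with e | e <;> rcases h2 _ (smul_ne_zero hc hv) with e' | e'
    · exact absurd e' (h5 e)
    · rw [h4 e, h4 e', h1]
    · rw [h4 e, h4 e', h1]
    · exact absurd e' (h5 e)
  intro w hw
  rcases h2 w hw with e | e <;> have := h4 e <;> omega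

theorem Tw.fourier (T : Tw ρ) (hs : ∀ c : ZMod p, c ≠ 0 → ∀ v, v ≠ 0 → ∃ h, ρ h v = c • v) :
    ∃ d, finrank (ZMod p) W = 2 * d ∧ ((∀ v, v ≠ 0 → p ^ d + 1 ∣ (stab ρ v).index) ∨
      ∀ v, v ≠ 0 → p ^ d - 1 ∣ (stab ρ v).index) := by
  classical
  have := Fintype.ofFinite W
  have := Fintype.ofFinite (Module.Dual (ZMod p) W)
  obtain ⟨a, b, h1, ha, hb, h2, -⟩ := T.exists_sum
  obtain ⟨α, β, h3, hα, hβ, h4, h5⟩ := T.dual.exists_sum
  rw [Subspace.dual_finrank_eq] at h3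
  have hle : ∀ {K L : Subgroup H}, K ≤ L → L.index ≤ K.index := fun h =>
    Nat.le_of_dvd (Nat.pos_of_ne_zero Subgroup.index_ne_zero_of_finite) (Subgroup.index_dvd_of_le h)
  have h6 : ((stab ρ.dual α).index = (stab ρ a).index ∧ (stab ρ.dual β).index = (stab ρ b).index) ∨
      (stab ρ.dual α).index = (stab ρ b).index ∧ (stab ρ.dual β).index = (stab ρ a).index := by
    obtain ⟨l, hl, e⟩ := exists_dual_fixed (ρ := ρ) T.cop ha
    obtain ⟨l', hl', e'⟩ := exists_dual_fixed (ρ := ρ) T.cop hb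
    obtain ⟨v, hv, f⟩ := exists_fixed_of_dual (ρ := ρ) T.cop hα
    obtain ⟨v', hv', f'⟩ := exists_fixed_of_dual (ρ := ρ) T.cop hβ
    have := hle e
    have := hle e'
    have := hle f
    have := hle f'
    have := h4 l hl
    have := h4 l' hl'
    have := h2 v hv
    have := h2 v' hv'
    omega
  let A := Finset.univ.filter (· ∈ orb ρ a)
  have hA : A.card = (stab ρ a).index := by rw [index_stab, ← Set.ncard_coe_finset]; simp [A]
  have hA0 : ∀ v ∈ A, v ≠ 0 := fun v hv => by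
    obtain ⟨h, rfl⟩ := (Finset.mem_filter.1 hv).2
    exact apply_ne_zero h ha
  have hAh : ∀ h, ∀ v ∈ A, ρ h v ∈ A := fun h v hv => by
    obtain ⟨g, rfl⟩ := (Finset.mem_filter.1 hv).2
    exact Finset.mem_filter.2 ⟨Finset.mem_univ _, h * g, mul_apply' _ _ _⟩
  have hAc : ∀ c : ZMod p, c ≠ 0 → ∀ v ∈ A, c • v ∈ A := fun c hc v hv => by
    obtain ⟨h, e⟩ := hs c hc v (hA0 v hv)
    exact e ▸ hAh h v hv
  let ψ : AddChar (ZMod p) ℂ := ZMod.stdAddChar
  let f : Module.Dual (ZMod p) W → ℂ := fun l => ∑ v ∈ A, ψ (l v)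
  have hf : ∀ h l, f (ρ.dual h l) = f l := fun h l =>
    Finset.sum_nbij' (ρ h⁻¹) (ρ h) (hAh _) (hAh _) (fun v _ => by
      simpa only [inv_inv] using inv_apply_apply (ρ := ρ) h⁻¹ v) (fun v _ => inv_apply_apply h v)
      fun _ _ => rfl
  have hψ : ψ ≠ 1 := fun h => one_ne_zero (ZMod.injective_stdAddChar
    ((DFunLike.congr_fun h 1).trans (DFunLike.congr_fun h 0).symm) : (1 : ZMod p) = 0)
  have hint : ∀ l, ∃ r : ℤ, f l = r := fun l => by
    have e1 := AddChar.sum_eq_zero_of_ne_one hψ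
    have e2 : ∀ c ∈ Finset.univ.erase (0 : ZMod p), ∑ v ∈ A with l v = c, ψ (l v) =
        (A.filter (l · = 1)).card * ψ c := fun c hc => by
      have hc := (Finset.mem_erase.1 hc).1
      rw [Finset.sum_congr rfl (g := fun _ => ψ c) fun v hv => by
        rw [(Finset.mem_filter.1 hv).2], Finset.sum_const, nsmul_eq_mul]
      congr 2
      refine Finset.card_nbij' (c⁻¹ • ·) (c • ·) (fun v hv => ?_) (fun v hv => ?_)
        (fun v _ => smul_inv_smul₀ hc v) fun v _ => inv_smul_smul₀ hc v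
      all_goals rw [Finset.mem_coe, Finset.mem_filter] at hv ⊢
      · exact ⟨hAc _ (inv_ne_zero hc) v hv.1, by rw [map_smul, hv.2, smul_eq_mul, inv_mul_cancel₀ hc]⟩
      · exact ⟨hAc _ hc v hv.1, by rw [map_smul, hv.2, smul_eq_mul, mul_one]⟩
    rw [← Finset.add_sum_erase _ _ (Finset.mem_univ 0), AddChar.map_zero_eq_one] at e1
    refine ⟨(A.filter (l · = 0)).card - (A.filter (l · = 1)).card, ?_⟩
    simp only [f]
    rw [← Finset.sum_fiberwise A l, ← Finset.add_sum_erase _ _ (Finset.mem_univ 0),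
      Finset.sum_congr rfl e2, ← Finset.mul_sum, eq_neg_of_add_eq_zero_right e1,
      Finset.sum_congr rfl (g := fun _ => 1) fun v hv => by
        rw [(Finset.mem_filter.1 hv).2, AddChar.map_zero_eq_one]]
    simp [sub_eq_add_neg]
  have horth : ∀ v : W, ∑ l : Module.Dual (ZMod p) W, ψ (l v) =
      if v = 0 then (p : ℂ) ^ finrank (ZMod p) W else 0 := fun v => by
    split_ifs with hv
    · simp [hv, ← Nat.card_eq_fintype_card, card_eq_pow (p := p), Subspace.dual_finrank_eq]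
    · refine AddChar.sum_eq_zero_of_ne_one (ψ := ψ.compAddMonoidHom
        (Module.Dual.eval (ZMod p) W v).toAddMonoidHom) fun h => ?_
      obtain ⟨l, hl⟩ := not_forall.1 ((Module.forall_dual_apply_eq_zero_iff (ZMod p) v).not.2 hv)
      exact hl (ZMod.injective_stdAddChar ((DFunLike.congr_fun h l).trans ψ.map_zero_eq_one.symm))
  have hf0 : f 0 = (stab ρ a).index := by simp [f, hA]
  have e1 := h5 f hf
  have e2 := h5 (fun l => f l ^ 2) fun h l => by rw [hf]
  rw [Finset.sum_comm, Finset.sum_eq_zero fun v hv => by rw [horth, if_neg (hA0 v hv)]] at e1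
  have e3 : ∑ l, f l ^ 2 = (p : ℂ) ^ finrank (ZMod p) W * (stab ρ a).index := by
    simp only [f, sq, Finset.sum_mul_sum, ← AddChar.map_add_eq_mul, ← map_add]
    rw [Finset.sum_comm, Finset.sum_congr rfl (g := fun _ => (p : ℂ) ^ finrank (ZMod p) W)
      fun v hv => ?_, Finset.sum_const, nsmul_eq_mul, hA, mul_comm]
    rw [Finset.sum_comm]
    simp only [horth, add_eq_zero_iff_neg_eq]
    rw [Finset.sum_ite_eq, if_pos (neg_one_smul (ZMod p) v ▸ hAc _ (by simp) v hv)]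
  obtain ⟨r, hr⟩ := hint α
  obtain ⟨s, hs⟩ := hint β
  rw [e3] at e2
  simp only [hf0, hr, hs] at e1 e2
  have hpos : ∀ K : Subgroup H, 0 < K.index := fun K =>
    Nat.pos_of_ne_zero Subgroup.index_ne_zero_of_finite
  obtain ⟨d, hd, h⟩ : ∃ d, finrank (ZMod p) W = 2 * d ∧
      ((p ^ d + 1 ∣ (stab ρ a).index ∧ p ^ d + 1 ∣ (stab ρ b).index) ∨
        (p ^ d - 1 ∣ (stab ρ a).index ∧ p ^ d - 1 ∣ (stab ρ b).index)) := by
    rcases h6 with ⟨e, e'⟩ | ⟨e, e'⟩ <;> rw [e, e'] at e1 e2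
    · exact fourier_arith (r := r) (s := s) (hpos _) (hpos _) h1 (by exact_mod_cast e1.symm)
        (by exact_mod_cast e2.symm)
    · rw [add_right_comm] at e1 e2
      exact fourier_arith (r := s) (s := r) (hpos _) (hpos _) h1 (by exact_mod_cast e1.symm)
        (by exact_mod_cast e2.symm)
  exact ⟨d, hd, h.imp (fun h v hv => (h2 v hv).elim (· ▸ h.1) (· ▸ h.2))
    fun h v hv => (h2 v hv).elim (· ▸ h.1) (· ▸ h.2)⟩

end Cfsg.Pass3
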