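import Cfsg.Agent.Pass3.Basic
import Cfsg.Agent.CT.Jordan

/-! The imprimitive case and the semilinear case. -/

set_option autoImplicit false

namespace Cfsg.Pass3

open Module Cfsg.Pass

universe u v

variable {p : ℕ} [hp : Fact p.Prime] {W : Type v} [AddCommGroup W] [Module (ZMod p) W] [Finite W]
  {H : Type u} [Group H] [Finite H] {ρ : Representation (ZMod p) H W}

theorem le_of_block (cop : ¬ p ∣ Nat.card H) {K : Subgroup H} (hK : K.index ≤ 2)
    {U : Submodule (ZMod p) W} (hU : ∀ k ∈ K, ∀ u ∈ U, ρ k u ∈ U)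
    (h2 : 2 ≤ finrank (ZMod p) U)
    (htr : ∀ u ∈ U, ∀ w ∈ U, u ≠ 0 → w ≠ 0 → ∃ k ∈ K, ρ k u = w) :
    p ≤ 2 * Nat.card (ConjClasses H) := by
  let σ : K →* Module.End (ZMod p) U :=
    { toFun := fun k => (ρ k).restrict (hU k k.2)
      map_one' := by ext; simp
      map_mul' := fun a b => by ext; simp }
  let τ : K ⧸ σ.ker →* Module.End (ZMod p) U := QuotientGroup.lift _ σ le_rfl
  have T : Tr (p := p) (W := U) τ := by
    refine ⟨fun a b h => ?_, fun h => cop (h.trans ((Subgroup.card_quotient_dvd_card _).trans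
      K.card_subgroup_dvd_card)), fun u w hu hw => ?_, nontrivial_of_finrank_pos (R := ZMod p)
        (by omega)⟩
    · obtain ⟨a, rfl⟩ := QuotientGroup.mk_surjective a
      obtain ⟨b, rfl⟩ := QuotientGroup.mk_surjective b
      refine QuotientGroup.eq.2 (MonoidHom.mem_ker.2 ?_)
      rw [map_mul, ← show σ a = σ b from h, ← map_mul, inv_mul_cancel, map_one]
    · obtain ⟨k, hk, h⟩ := htr u u.2 w w.2 (fun h => hu (Subtype.ext h)) fun h => hw (Subtype.ext h)
      exact ⟨(⟨k, hk⟩ : K), Subtype.ext h⟩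
  rcases T.main with h | h | ⟨rfl, -, ⟨e⟩⟩
  · exact h.trans ((Nat.card_le_card_of_surjective _ (ConjClasses.map_surjective
      (QuotientGroup.mk'_surjective σ.ker))).trans ((classes_le_index_mul K).trans
        (Nat.mul_le_mul_right _ hK)))
  · omega
  have key : ∀ (y : Matrix.SpecialLinearGroup (Fin 2) (ZMod 5)) (m : ℕ), m ∣ orderOf y →
      ∃ x : H, m ∣ orderOf x := fun y m hm => by
    obtain ⟨x, rfl⟩ := (e.surjective.comp (QuotientGroup.mk'_surjective σ.ker)) y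
    exact ⟨x, hm.trans ((orderOf_map_dvd (e.toMonoidHom.comp (QuotientGroup.mk' σ.ker)) x).trans
      (Subgroup.orderOf_coe x).symm.dvd)⟩
  obtain ⟨y4, h4⟩ : ∃ y : Matrix.SpecialLinearGroup (Fin 2) (ZMod 5), orderOf y = 4 :=
    ⟨⟨!![0, -1; 1, 0], by decide⟩, (orderOf_eq_iff (by norm_num)).2 (by decide)⟩
  obtain ⟨y6, h6⟩ : ∃ y : Matrix.SpecialLinearGroup (Fin 2) (ZMod 5), orderOf y = 6 :=
    ⟨⟨!![1, -1; 1, 0], by decide⟩, (orderOf_eq_iff (by norm_num)).2 (by decide)⟩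
  obtain ⟨y5, h5⟩ : ∃ y : Matrix.SpecialLinearGroup (Fin 2) (ZMod 5), orderOf y = 5 :=
    ⟨⟨!![1, 1; 0, 1], by decide⟩, (orderOf_eq_iff (by norm_num)).2 (by decide)⟩
  have h := card_le_classes_of_orders (H := H) {1, 2, 3, 4, 5, 6} fun m hm => by
    simp only [Finset.mem_insert, Finset.mem_singleton] at hm
    rcases hm with rfl | rfl | rfl | rfl | rfl | rfl
    exacts [key y4 _ (one_dvd _), key y4 _ (by rw [h4]; norm_num), key y6 _ (by rw [h6]; norm_num),
      key _ _ h4.symm.dvd, key _ _ h5.symm.dvd, key _ _ h6.symm.dvd]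
  change 6 ≤ _ at h
  omega

/-- a normalized commutative algebra of endomorphisms is a field -/
theorem Tw.isField (T : Tw ρ) (hn : 3 ≤ finrank (ZMod p) W)
    (hk : ¬ p ≤ 2 * Nat.card (ConjClasses H)) (D : Subalgebra (ZMod p) (Module.End (ZMod p) W))
    (hc : ∀ x ∈ D, ∀ y ∈ D, x * y = y * x) (hN : ∀ h, ∀ x ∈ D, ρ h * x * ρ h⁻¹ ∈ D) :
    IsField D := by
  classical
  have : Nontrivial W := nontrivial_of_finrank_pos (R := ZMod p) (by omega)
  have : Finite (Module.End (ZMod p) W) := Finite.of_injective _ DFunLike.coe_injective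
  let An : W → Set (Module.End (ZMod p) W) := fun v => {x | x ∈ D ∧ x v = 0}
  have hcomm : ∀ x ∈ D, ∀ y ∈ D, ∀ v, x (y v) = y (x v) := fun x hx y hy v =>
    LinearMap.congr_fun (hc x hx y hy) v
  have hconj : ∀ h v x, x ∈ An (ρ h v) ↔ ρ h⁻¹ * x * ρ h ∈ An v := fun h v x => by
    refine ⟨fun hx => ⟨by simpa using hN h⁻¹ x hx.1, ?_⟩, fun hx => ⟨?_, ?_⟩⟩
    · rw [Module.End.mul_apply, Module.End.mul_apply, hx.2, map_zero]
    · have h1 := hN h _ hx.1
      rwa [← mul_assoc, ← mul_assoc, ← map_mul, mul_inv_cancel, map_one, one_mul, mul_assoc,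
        ← map_mul, mul_inv_cancel, map_one, mul_one] at h1
    · by_contra h1
      exact apply_ne_zero h⁻¹ h1 hx.2
  have hle : ∀ h v, (An (ρ h v)).ncard ≤ (An v).ncard := fun h v =>
    Set.ncard_le_ncard_of_injOn (fun x => ρ h⁻¹ * x * ρ h) (fun x hx => (hconj h v x).1 hx)
      fun x _ y _ hxy => LinearMap.ext fun w => by
        have h1 := congrArg (ρ h) (LinearMap.congr_fun hxy (ρ h⁻¹ w))
        simpa only [Module.End.mul_apply, ← mul_apply', mul_inv_cancel, map_one,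
          Module.End.one_apply] using h1
  have hcard : ∀ h v, (An (ρ h v)).ncard = (An v).ncard := fun h v =>
    le_antisymm (hle h v) (by simpa only [inv_apply_apply] using hle h⁻¹ (ρ h v))
  obtain ⟨⟨v₀, h0⟩, hmax⟩ : ∃ v₀ : {v : W // v ≠ 0}, ∀ v : {v : W // v ≠ 0},
      (An v).ncard ≤ (An v₀).ncard := by
    have : Nonempty {v : W // v ≠ 0} := ⟨⟨_, (exists_ne 0).choose_spec⟩⟩
    exact Finite.exists_max _
  have heq : ∀ h w, w ≠ 0 → An (ρ h v₀) ⊆ An w → An w = An (ρ h v₀) := fun h w hw hs =>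
    (Set.eq_of_subset_of_ncard_le hs (by rw [hcard]; exact hmax ⟨w, hw⟩)).symm
  have hdiff : ∀ g h, An (ρ g v₀) ≠ An (ρ h v₀) → ∃ x ∈ An (ρ g v₀), x (ρ h v₀) ≠ 0 :=
    fun g h hne => by
      by_contra h1
      push Not at h1
      exact hne (heq g _ (apply_ne_zero h h0) fun x hx => ⟨hx.1, h1 x hx⟩).symm
  have hprime : ∀ h, ∀ x ∈ D, x (ρ h v₀) ≠ 0 → An (x (ρ h v₀)) = An (ρ h v₀) := fun h x hx hx0 =>
    heq h _ hx0 fun y hy => ⟨hy.1, by rw [hcomm y hy.1 x hx, hy.2, map_zero]⟩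
  let U : H → Submodule (ZMod p) W := fun h => ⨅ x ∈ An (ρ h v₀), LinearMap.ker x
  have hU : ∀ h w, w ∈ U h ↔ An (ρ h v₀) ⊆ An w := fun h w => by
    simp only [U, Submodule.mem_iInf, LinearMap.mem_ker]
    exact ⟨fun h1 x hx => ⟨hx.1, h1 x hx⟩, fun h1 x hx => (h1 hx).2⟩
  have hUm : ∀ g h, ∀ w ∈ U h, ρ g w ∈ U (g * h) := fun g h w hw => by
    rw [hU] at hw ⊢
    intro x hx
    rw [mul_apply', hconj] at hx
    exact (hconj _ _ _).2 (hw hx)
  have hUe : ∀ g h, An (ρ g v₀) = An (ρ h v₀) → U g = U h := fun g h e => by simp only [U, e]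
  have hv : ∀ h, ρ h v₀ ∈ U h := fun h => (hU h _).2 le_rfl
  have hU0 : ∀ h, U h ≠ ⊥ := fun h h1 => apply_ne_zero h h0 ((Submodule.eq_bot_iff _).1 h1 _ (hv h))
  by_cases hall : ∀ h, An (ρ h v₀) = An (ρ 1 v₀)
  · have h1 := (T.irreducible (U 1) fun h w hw => hUe _ _ (hall _) ▸ hUm h 1 w hw).resolve_left
      (hU0 1)
    have : NoZeroDivisors D := ⟨fun {a b} h => or_iff_not_imp_right.2 fun hb => by
      obtain ⟨w, hw⟩ : ∃ w, b.1 w ≠ 0 := by
        by_contra h2
        push Not at h2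
        exact hb (Subtype.ext (LinearMap.ext h2))
      have h2 : a.1 ∈ An (b.1 w) := ⟨a.2, LinearMap.congr_fun (congrArg Subtype.val h) w⟩
      rw [heq 1 _ hw ((hU 1 _).1 (h1 ▸ Submodule.mem_top))] at h2
      exact Subtype.ext (LinearMap.ext fun x => ((hU 1 x).1 (h1 ▸ Submodule.mem_top) h2).2)⟩
    have := NoZeroDivisors.to_isDomain D
    exact Finite.isDomain_to_isField _
  push Not at hall
  obtain ⟨g, hg⟩ := hall
  have hsum : ∀ a b, An (ρ a v₀) ≠ An (ρ b v₀) → An (ρ a v₀ + ρ b v₀) ⊆ An (ρ a v₀) :=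
    fun a b hne y hy => by
      obtain ⟨x, hx, hx0⟩ := hdiff b a hne.symm
      rw [← hprime a x hx.1 hx0]
      refine ⟨hy.1, ?_⟩
      rw [← add_zero (x _), ← hx.2, ← map_add, hcomm y hy.1 x hx.1, hy.2, map_zero, hx.2]
  have hlt : ∀ a b, An (ρ a v₀) ≠ An (ρ b v₀) → ρ a v₀ + ρ b v₀ ≠ 0 ∧
      (An (ρ a v₀ + ρ b v₀)).ncard < (An v₀).ncard := fun a b hne => by
    obtain ⟨x, hx, hx0⟩ := hdiff a b hne
    have h1 : x (ρ a v₀ + ρ b v₀) ≠ 0 := by rwa [map_add, hx.2, zero_add]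
    refine ⟨fun h => h1 (by rw [h, map_zero]), ?_⟩
    rw [← hcard a v₀]
    exact Set.ncard_lt_ncard ⟨hsum a b hne, fun h => h1 (h hx).2⟩
  have htwo : ∀ h, An (ρ h v₀) = An (ρ 1 v₀) ∨ An (ρ h v₀) = An (ρ g v₀) := fun h => by
    by_contra h1
    push Not at h1
    have h3 : ∀ a b c, An (ρ a v₀) ≠ An (ρ b v₀) → An (ρ a v₀) ≠ An (ρ c v₀) →
        An (ρ a v₀ + ρ b v₀ + ρ c v₀) ⊆ An (ρ a v₀) := fun a b c hb hc' y hy => by
      obtain ⟨x, hx, hx0⟩ := hdiff b a hb.symm
      obtain ⟨z, hz, hz0⟩ := hdiff c a hc'.symm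
      have h4 : z (x (ρ a v₀)) ≠ 0 := fun h => hz0 ((hprime a x hx.1 hx0).le ⟨hz.1, h⟩).2
      rw [← hprime a (z * x) (D.mul_mem hz.1 hx.1) h4]
      refine ⟨hy.1, ?_⟩
      have h5 : z (x (ρ a v₀ + ρ b v₀ + ρ c v₀)) = z (x (ρ a v₀)) := by
        rw [map_add, map_add x, hx.2, add_zero, map_add, hcomm z hz.1 x hx.1 (ρ c v₀), hz.2,
          map_zero, add_zero]
      rw [Module.End.mul_apply, ← h5, hcomm y hy.1 z hz.1, hcomm y hy.1 x hx.1, hy.2, map_zero,
        map_zero]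
    obtain ⟨x, hx, hx0⟩ := hdiff 1 h h1.1.symm
    obtain ⟨z, hz, hz0⟩ := hdiff g h h1.2.symm
    have h4 : z (x (ρ h v₀)) ≠ 0 := fun e => hz0 ((hprime h x hx.1 hx0).le ⟨hz.1, e⟩).2
    have h5 : z * x ∈ An (ρ 1 v₀ + ρ g v₀) := ⟨D.mul_mem hz.1 hx.1, by
      rw [Module.End.mul_apply, map_add, hx.2, zero_add, hcomm z hz.1 x hx.1, hz.2, map_zero]⟩
    have h6 : (z * x) (ρ 1 v₀ + ρ g v₀ + ρ h v₀) ≠ 0 := by rwa [map_add, h5.2, zero_add]
    have h7 : (An (ρ 1 v₀ + ρ g v₀ + ρ h v₀)).ncard < (An (ρ 1 v₀ + ρ g v₀)).ncard :=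
      Set.ncard_lt_ncard ⟨fun y hy => ⟨hy.1, by
        rw [map_add, (h3 1 g h hg.symm h1.1.symm hy).2,
          (h3 g 1 h hg h1.2.symm (by rwa [add_comm (ρ g v₀)])).2, add_zero]⟩,
        fun e => h6 (e h5).2⟩
    have h8 := hlt 1 g hg.symm
    rcases T.three h0 h8.1 (w := ρ 1 v₀ + ρ g v₀ + ρ h v₀) (fun e => h6 (by rw [e, map_zero])) with
      ⟨k, e⟩ | ⟨k, e⟩ | ⟨k, e⟩
    · have := hcard k v₀
      rw [e] at this
      omega
    · have := hcard k v₀
      rw [e] at this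
      omega
    · have := hcard k (ρ 1 v₀ + ρ g v₀)
      rw [e] at this
      omega
  have hmem : ∀ a b, An (ρ a v₀) = An (ρ b v₀) → ∀ c, An (ρ (c * a) v₀) = An (ρ (c * b) v₀) :=
    fun a b e c => by
      ext x
      rw [mul_apply', mul_apply', hconj c, hconj c, e]
  let K : Subgroup H :=
    { carrier := {h | An (ρ h v₀) = An (ρ 1 v₀)}
      one_mem' := rfl
      mul_mem' := fun {a b} ha hb => (hmem b 1 hb a).trans (by rw [mul_one]; exact ha)
      inv_mem' := fun {a} ha => by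
        have h1 := hmem a 1 ha a⁻¹
        rw [inv_mul_cancel, mul_one] at h1
        exact h1.symm }
  refine absurd (le_of_block T.cop (ρ := ρ) (K := K) (U := U 1) ?_ (fun k hk w hw => ?_) ?_
    fun u hu w hw hu0 hw0 => ?_) hk
  · refine (index_le_card_of_fibers K (fun h => An (ρ h v₀) = An (ρ 1 v₀)) fun a b e => ?_).trans
      (by simp)
    have h1 : An (ρ b v₀) = An (ρ a v₀) := by
      by_cases h2 : An (ρ a v₀) = An (ρ 1 v₀)
      · exact (e.mp h2).trans h2.symm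
      · exact ((htwo b).resolve_left fun h => h2 (e.mpr h)).trans ((htwo a).resolve_left h2).symm
    have h2 := hmem b a h1 a⁻¹
    rwa [inv_mul_cancel] at h2
  · exact hUe (k * 1) 1 (by rw [mul_one]; exact hk) ▸ hUm k 1 w hw
  · have h1 : ∀ h, U h ≤ U 1 ⊔ U g := fun h => (htwo h).elim
      (fun e => hUe _ _ e ▸ le_sup_left) fun e => hUe _ _ e ▸ le_sup_right
    have h2 := (T.irreducible (U 1 ⊔ U g) fun h w hw => by
      obtain ⟨a, ha, b, hb, rfl⟩ := Submodule.mem_sup.1 hw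
      rw [map_add]
      exact add_mem (h1 _ (hUm h 1 a ha)) (h1 _ (hUm h g b hb))).resolve_left
        fun e => hU0 1 (le_bot_iff.1 (e ▸ le_sup_left))
    have h3 := Submodule.finrank_add_le_finrank_add_finrank (U 1) (U g)
    have h4 : U g ≤ (U 1).map (ρ g) := fun w hw =>
      ⟨ρ g⁻¹ w, inv_mul_cancel g ▸ hUm g⁻¹ g w hw, by
        rw [← mul_apply', mul_inv_cancel, map_one, Module.End.one_apply]⟩
    have h5 := (Submodule.finrank_mono h4).trans (Submodule.finrank_map_le _ _)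
    rw [h2, finrank_top] at h3
    omega
  · have h1 := heq 1 u hu0 ((hU 1 u).1 hu)
    have h2 := heq 1 w hw0 ((hU 1 w).1 hw)
    have h8 := hlt 1 g hg.symm
    have h3 := hcard 1 v₀
    have h4 : ∀ x, x ≠ 0 → An x = An (ρ 1 v₀) → ¬ ∃ k, ρ k x = ρ 1 v₀ + ρ g v₀ :=
      fun x hx e ⟨k, e'⟩ => by
        have := hcard k x
        rw [e', e] at this
        omega
    obtain ⟨k, hk⟩ := ((T.three hu0 hw0 h8.1).resolve_right fun h => h.elim (h4 u hu0 h1)
      (h4 w hw0 h2))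
    refine ⟨k, ?_, hk⟩
    change An _ = An _
    ext x
    rw [← h2, ← hk, hconj, hconj, h1, map_one, Module.End.one_apply]

theorem sixty_mul_sq_le {n : ℕ} (hn : 4 ≤ n) : 60 * n ^ 2 ≤ 11 ^ (n - 1) := by
  induction n, hn using Nat.le_induction with
  | base => norm_num
  | succ n hn ih =>
    obtain ⟨m, rfl⟩ : ∃ m, n = m + 1 := ⟨n - 1, by omega⟩
    rw [Nat.add_sub_cancel] at ih ⊢
    rw [pow_succ 11 m]
    nlinarith

theorem Tw.le_of_card_le (T : Tw ρ) (hn : 2 ≤ finrank (ZMod p) W) {c : ℕ}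
    (hc : c ≤ 11 ^ (finrank (ZMod p) W - 1)) (h : Nat.card H ≤ c * Nat.card (ConjClasses H)) :
    p ≤ 2 * Nat.card (ConjClasses H) := by
  by_contra hk
  have h1 := hc.trans (Nat.pow_le_pow_left (T.eleven_le hn hk) _)
  have h2 := T.pow_le
  obtain ⟨m, hm⟩ : ∃ m, finrank (ZMod p) W = m + 1 + 1 := ⟨finrank (ZMod p) W - 2, by omega⟩
  rw [hm, Nat.add_sub_cancel] at h1
  rw [hm, pow_succ] at h2
  have h3 := Nat.mul_le_mul h1 (show 2 * Nat.card (ConjClasses H) + 1 ≤ p by omega)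
  have h4 : 1 < p ^ (m + 1) := Nat.one_lt_pow (by omega) hp.out.one_lt
  have h5 := Nat.mul_le_mul_left (p ^ (m + 1)) (show 2 * Nat.card (ConjClasses H) + 1 ≤ p by omega)
  have h6 := Nat.mul_le_mul_right (2 * Nat.card (ConjClasses H)) h1
  nlinarith

theorem dickson_rep {F : Type*} [Field F] {V : Type*} [AddCommGroup V] [Module F V]
    (σ : H →* Module.End F V) (hσ : Function.Injective σ) (h : finrank F V = 2) (h2 : (2 : F) ≠ 0)
    (hK : (Nat.card H : F) ≠ 0) :
    (∃ A : Subgroup H, (∀ a ∈ A, ∀ b ∈ A, Commute a b) ∧ A.index ≤ 2) ∨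
      (Subgroup.center H).index ≤ 60 := by
  have := Module.finite_of_finrank_eq_succ h
  let b := Module.finBasisOfFinrankEq F V h
  exact (dickson_mat2 ((LinearMap.toMatrixAlgEquiv b).toMonoidHom.comp σ)
    ((LinearMap.toMatrixAlgEquiv b).injective.comp hσ) h2 hK).imp id fun h => by omega

theorem Tw.le_of_field (T : Tw ρ) (hn : 3 ≤ finrank (ZMod p) W)
    {D : Subalgebra (ZMod p) (Module.End (ZMod p) W)} (hD : IsField D) {C : Subgroup H}
    (hC : ∀ c ∈ C, ∀ x ∈ D, ρ c * x = x * ρ c) (hi : C.index ≤ finrank (ZMod p) W)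
    (hr : finrank (ZMod p) W ≤ 2 * finrank (ZMod p) D) : p ≤ 2 * Nat.card (ConjClasses H) := by
  classical
  by_contra hk
  have hp11 := T.eleven_le (by omega) hk
  let _ := hD.toField
  have : FiniteDimensional D W := Module.Finite.of_finite
  have h1 := finrank_mul_finrank (ZMod p) D W
  let σ : C →* Module.End D W :=
    { toFun := fun c => ⟨(ρ c).toAddHom, fun x w => LinearMap.congr_fun (hC c c.2 x x.2) w⟩
      map_one' := by ext; simp
      map_mul' := fun a b => by ext; simp }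
  have hσ : Function.Injective σ := fun a b h =>
    Subtype.ext (T.inj (LinearMap.ext fun w => LinearMap.congr_fun h w))
  have hc := C.index_mul_card
  have key : ∀ (A B : Subgroup C) (c : ℕ), (∀ a ∈ A, ∀ b ∈ B, Commute b a) →
      A.index * B.index ≤ c → c * finrank (ZMod p) W ^ 2 ≤ 11 ^ (finrank (ZMod p) W - 1) →
      False := fun A B c h hc h' => by
    refine hk (T.le_of_card_le (by omega) h' ?_)
    have h2 := card_le_index_mul (A := A.map C.subtype) (C := B.map C.subtype) (by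
      rintro _ ⟨a, ha, rfl⟩ _ ⟨b, hb, rfl⟩
      exact (h a ha b hb).map C.subtype)
    rw [card_map_subtype, Subgroup.index_map_subtype] at h2
    calc Nat.card H = C.index * (A.index * Nat.card A) := by
          rw [A.index_mul_card, C.index_mul_card]
      _ ≤ C.index * (A.index * (B.index * C.index * Nat.card (ConjClasses H))) := by gcongr
      _ = A.index * B.index * (C.index * C.index) * Nat.card (ConjClasses H) := by ring
      _ ≤ _ := by rw [sq]; gcongr
  have h60 := sixty_mul_sq_le (n := finrank (ZMod p) W)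
  rcases (show finrank D W = 1 ∨ finrank D W = 2 by
    have h2 : finrank D W ≤ 2 := by
      by_contra h2
      have := Nat.mul_le_mul_left (finrank (ZMod p) D) (show 3 ≤ finrank D W by omega)
      omega
    have h3 : finrank D W ≠ 0 := fun h => by rw [h] at h1; omega
    omega) with h2 | h2
  · refine key ⊤ ⊤ 1 (fun a _ b _ => hσ ?_) (by simp) ?_
    · obtain ⟨c, hc⟩ := (LinearMap.existsUnique_eq_smul_id_of_finrank_eq_one h2 (σ a)).exists
      rw [map_mul, map_mul, hc]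
      ext v
      simp
    · rcases hn.eq_or_lt with h | h
      · rw [← h]; norm_num
      · have := h60 h
        omega
  have h4 := h60 (by rw [h2] at h1; omega)
  have hch : ∀ m : ℕ, ¬ p ∣ m → (m : D) ≠ 0 := fun m hm h => hm (by
    rwa [← map_natCast (algebraMap (ZMod p) D), map_eq_zero, ZMod.natCast_eq_zero_iff] at h)
  rcases dickson_rep σ hσ h2 (hch 2 fun h => absurd (Nat.le_of_dvd two_pos h) (by omega))
    (hch _ fun h => T.cop (h.trans C.card_subgroup_dvd_card)) with ⟨A, hA, hi⟩ | hi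
  · exact key A A 60 (fun a ha b hb => hA b hb a ha) ((Nat.mul_le_mul hi hi).trans (by norm_num)) h4
  · exact key (Subgroup.center C) ⊤ 60 (fun a ha b _ => Subgroup.mem_center_iff.1 ha b)
      (by rwa [Subgroup.index_top, mul_one]) h4

/-- elements of abelian normal subgroups generate small fields -/
theorem Tw.adjoin_small (T : Tw ρ) (hn : 3 ≤ finrank (ZMod p) W)
    (hk : ¬ p ≤ 2 * Nat.card (ConjClasses H)) {A : Subgroup H} [hA : A.Normal]
    (hc : ∀ a ∈ A, ∀ b ∈ A, a * b = b * a) {z : H} (hz : z ∈ A) :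
    IsField (Algebra.adjoin (ZMod p) {ρ z}) ∧
      2 * finrank (ZMod p) (Algebra.adjoin (ZMod p) {ρ z}) < finrank (ZMod p) W := by
  classical
  have := Fintype.ofFinite H
  have : Finite (Module.End (ZMod p) W) := Finite.of_injective _ DFunLike.coe_injective
  have hD := T.isField hn hk (Algebra.adjoin (ZMod p) (ρ '' A)) (fun x hx y hy => by
    let _ := Algebra.adjoinCommRingOfComm (ZMod p) (s := ρ '' A) (by
      rintro _ ⟨a, ha, rfl⟩ _ ⟨b, hb, rfl⟩
      rw [← map_mul, hc a ha b hb, map_mul])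
    exact congrArg Subtype.val (mul_comm (⟨x, hx⟩ : Algebra.adjoin (ZMod p) (ρ '' A)) ⟨y, hy⟩))
    fun h x hx => by
      induction hx using Algebra.adjoin_induction with
      | mem x hx =>
        obtain ⟨a, ha, rfl⟩ := hx
        exact Algebra.subset_adjoin ⟨_, hA.conj_mem a ha h, by rw [map_mul, map_mul]⟩
      | algebraMap r =>
        rw [← Algebra.commutes, mul_assoc, ← map_mul, mul_inv_cancel, map_one, mul_one]
        exact Subalgebra.algebraMap_mem _ r
      | add x y _ _ hx hy =>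
        rw [mul_add, add_mul]
        exact add_mem hx hy
      | mul x y _ _ hx hy =>
        convert mul_mem hx hy using 1
        rw [mul_assoc _ (ρ h⁻¹), ← mul_assoc (ρ h⁻¹), ← mul_assoc (ρ h⁻¹), ← map_mul,
          inv_mul_cancel, map_one, one_mul, mul_assoc, mul_assoc, mul_assoc]
  have hm : ∀ a ∈ A, ρ a ∈ Algebra.adjoin (ZMod p) (ρ '' A) := fun a ha =>
    Algebra.subset_adjoin ⟨a, ha, rfl⟩
  have hle : Algebra.adjoin (ZMod p) {ρ z} ≤ Algebra.adjoin (ZMod p) (ρ '' A) :=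
    Algebra.adjoin_le (Set.singleton_subset_iff.2 (hm z hz))
  have hD' : IsField (Algebra.adjoin (ZMod p) {ρ z}) := by
    have := hD.isDomain
    have := (Subalgebra.inclusion_injective hle).isDomain (Subalgebra.inclusion hle)
    exact Finite.isDomain_to_isField _
  refine ⟨hD', not_le.1 fun h => hk (T.le_of_field hn hD' (C := Subgroup.centralizer {z})
    (fun c hc x hx => (Algebra.commute_of_mem_adjoin_singleton_of_commute hx
      ((show Commute c z from Subgroup.mem_centralizer_singleton_iff.1 hc).map ρ)).eq) ?_ h)⟩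
  generalize Algebra.adjoin (ZMod p) (ρ '' A) = D at hD hm
  let φ : H → D := fun y => if h : y ∈ A then ⟨_, hm y h⟩ else 0
  have hφ : ∀ y ∈ A, (φ y).1 = ρ y := fun y hy => by simp only [φ, dif_pos hy]
  have h1 := card_filter_isConj_le' ρ hD (Finset.univ.filter (· ∈ A)) φ (fun a ha b hb h => T.inj (by
    rw [Finset.mem_coe, Finset.mem_filter] at ha hb
    rw [← hφ a ha.2, ← hφ b hb.2, h])) (fun y hy f hf => Subtype.ext (by
      rw [Polynomial.aeval_subalgebra_coe, hφ y (Finset.mem_filter.1 hy).2, hf]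
      rfl)) z
  rw [← card_filter_isConj]
  refine le_trans (Finset.card_le_card fun y hy => ?_) h1
  simp only [Finset.mem_filter, Finset.mem_univ, true_and] at hy ⊢
  obtain ⟨c, rfl⟩ := isConj_iff.1 hy
  exact ⟨hA.conj_mem z hz c, hy⟩

theorem Tw.eq_bot_of_isPGroup (T : Tw ρ) (hn : 3 ≤ finrank (ZMod p) W)
    (hk : ¬ p ≤ 2 * Nat.card (ConjClasses H)) {s : ℕ} [hs : Fact s.Prime]
    (h : ∀ i, 0 < i → 2 * i < finrank (ZMod p) W → ¬ s ∣ p ^ i - 1) {N : Subgroup H} [N.Normal]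
    (hN : IsPGroup s N) : N = ⊥ := by
  by_contra h0
  have := (Subgroup.nontrivial_iff_ne_bot N).2 h0
  have := hN.center_nontrivial
  obtain ⟨z, hz⟩ := exists_prime_orderOf_dvd_card' (G := Subgroup.center N) s (by
    obtain ⟨k, hk0, hk⟩ := (hN.to_subgroup (Subgroup.center N)).nontrivial_iff_card.1 this
    exact hk ▸ dvd_pow_self s hk0.ne')
  obtain ⟨hD, h1⟩ := T.adjoin_small hn hk (A := (Subgroup.center N).map N.subtype) (by
    rintro _ ⟨a, ha, rfl⟩ _ ⟨b, -, rfl⟩
    exact (congrArg Subtype.val (Subgroup.mem_center_iff.1 ha b)).symm) (z := z.1.1)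
    ⟨z.1, z.2, rfl⟩
  have : Finite (Module.End (ZMod p) W) := Finite.of_injective _ DFunLike.coe_injective
  have hm := Algebra.self_mem_adjoin_singleton (ZMod p) (ρ z.1.1)
  generalize Algebra.adjoin (ZMod p) {ρ z.1.1} = D at hD h1 hm
  let _ := hD.toField
  have := Fintype.ofFinite D
  refine h _ finrank_pos h1 ?_
  rw [← card_eq_pow (p := p) D, Nat.card_eq_fintype_card, ← hz, ← Subgroup.orderOf_coe,
    ← Subgroup.orderOf_coe]
  refine orderOf_dvd_of_pow_eq_one (T.inj ?_)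
  rw [map_pow, map_one]
  refine congrArg Subtype.val (FiniteField.pow_card_sub_one_eq_one (⟨_, hm⟩ : D) fun h0 => ?_)
  have : Nontrivial W := nontrivial_of_finrank_pos (R := ZMod p) (by omega)
  obtain ⟨v, hv⟩ := exists_ne (0 : W)
  exact apply_ne_zero _ hv (LinearMap.congr_fun (congrArg Subtype.val h0) v)

theorem Tw.scalar_of_four (T : Tw ρ) (hn : finrank (ZMod p) W = 4)
    (hk : ¬ p ≤ 2 * Nat.card (ConjClasses H)) {A : Subgroup H} [hA : A.Normal]
    (hc : ∀ a ∈ A, ∀ b ∈ A, a * b = b * a) {z : H} (hz : z ∈ A) :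
    ∃ c : ZMod p, ∀ v, ρ z v = c • v := by
  obtain ⟨hD, h1⟩ := T.adjoin_small (by omega) hk hc hz
  have hm := Algebra.self_mem_adjoin_singleton (ZMod p) (ρ z)
  have := hD.nontrivial
  have : Nontrivial W := nontrivial_of_finrank_pos (R := ZMod p) (by omega)
  have h2 : 0 < finrank (ZMod p) (Algebra.adjoin (ZMod p) {ρ z}) := finrank_pos
  rw [Subalgebra.finrank_eq_one_iff.1 (show finrank (ZMod p) (Algebra.adjoin (ZMod p) {ρ z}) = 1 by
    omega)] at hm
  obtain ⟨c, hc⟩ := Algebra.mem_bot.1 hm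
  exact ⟨c, fun v => by rw [← hc]; rfl⟩

end Cfsg.Pass3
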