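import Cfsg.Agent.Pass3.Prim
import Cfsg.Agent.Pass3.Fourier
import Cfsg.Agent.Pass3.Num

/-! Assembly of the two-orbit theorem outside dimension four. -/

set_option autoImplicit false

namespace Cfsg.Pass3

open Module Cfsg.Pass

universe u v

variable {p : ℕ} [hp : Fact p.Prime] {W : Type v} [AddCommGroup W] [Module (ZMod p) W] [Finite W]
  {H : Type u} [Group H] [Finite H] {ρ : Representation (ZMod p) H W}

theorem ne_two_of_primitive (hp3 : 3 ≤ p) {s n : ℕ} (hn : 2 ≤ n)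
    (h : ∀ i, 0 < i → i < n → ¬ s ∣ p ^ i - 1) : s ≠ 2 := by
  rintro rfl
  have := hp.out.eq_two_or_odd
  exact h 1 one_pos hn (by rw [pow_one]; omega)

theorem Tw.of_primitive (T : Tw ρ) (hn : 3 ≤ finrank (ZMod p) W)
    (h : ∀ s e : ℕ, s.Prime → (∀ i, 0 < i → i < finrank (ZMod p) W → ¬ s ∣ p ^ i - 1) →
      s ^ e ∣ p ^ finrank (ZMod p) W - 1 → s ≠ 2 → ∀ v, v ≠ 0 → s ^ e ∣ (stab ρ v).index) :
    p ≤ 2 * Nat.card (ConjClasses H) := by
  by_contra hk
  have h11 := T.eleven_le (by omega) hk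
  have key : ∀ s e : ℕ, s.Prime → (∀ i, 0 < i → i < finrank (ZMod p) W → ¬ s ∣ p ^ i - 1) →
      s ^ (e + 1) ∣ p ^ finrank (ZMod p) W - 1 → _ := fun s e hs h1 h2 =>
    have h3 := ne_two_of_primitive (by omega) (by omega) h1
    T.prim_bound hn hk hs h3 (fun i hi hi' => h1 i hi (by omega)) (h s _ hs h1 h2 h3)
  obtain ⟨h6, h17⟩ := eq_six_of_small_primitive (q := p) (by omega) hn fun s hs h1 h2 =>
    ⟨(key s 0 hs h2 (by simpa using h1)).1, fun h3 => by
      have h4 := (key s 1 hs h2 h3).2.2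
      rw [pow_one] at h4
      refine h2 (s - 1) (by have := hs.two_le; omega) (by omega) ?_
      have h5 : ¬ s ∣ p := fun h => hs.one_lt.ne' (Nat.dvd_one.1 ((Nat.dvd_sub_iff_right
        (Nat.one_le_pow _ _ hp.out.pos) (h.trans (dvd_pow_self p (by omega)))).1 h1))
      have h6 := Nat.ModEq.pow_totient ((Nat.Prime.coprime_iff_not_dvd hs).2 h5).symm
      rw [Nat.totient_prime hs] at h6
      exact (Nat.modEq_iff_dvd' (Nat.one_le_pow _ _ hp.out.pos)).1 h6.symm⟩
  obtain rfl : p = 17 := by omega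
  rw [h6] at key
  exact absurd ((key 13 0 (by norm_num) (fun i _ _ => by interval_cases i <;> norm_num)
    (by norm_num)).2.1 (by norm_num)) (by norm_num)

theorem Tw.of_latin (T : Tw ρ) {d : ℕ} (hn : finrank (ZMod p) W = 2 * d) (hd : 3 ≤ d)
    (h : ∀ v, v ≠ 0 → p ^ d - 1 ∣ (stab ρ v).index) : p ≤ 2 * Nat.card (ConjClasses H) := by
  by_contra hk
  have h11 := T.eleven_le (by omega) hk
  obtain ⟨rfl, rfl⟩ := latin_num h11 hd fun s hs h1 h2 => by
    have key := fun e (h3 : s ^ (e + 1) ∣ p ^ d - 1) => T.prim_bound (by omega) hk hs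
      (ne_two_of_primitive (by omega) (by omega) h2) (fun i hi hi' => h2 i hi (by omega))
      fun v hv => h3.trans (h v hv)
    rw [hn] at key
    exact ⟨(key 0 (by simpa using h1)).2.1 (by omega), fun e he => (key e he).2.2⟩
  obtain ⟨a, -, ha, -⟩ := T.two
  have : Fact (Nat.Prime 307) := ⟨by norm_num⟩
  obtain ⟨x, hx⟩ := exists_prime_orderOf_dvd_card' 307 (((by norm_num : 307 ∣ 17 ^ 6 - 1).trans
    (h a ha)).trans (Subgroup.index_dvd_card _))
  have h1 := prime_le_mul_classes ρ T.inj this.out hx fun h => absurd ((ZMod.natCast_eq_zero_iff _ _).1 h)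
    (by norm_num)
  rw [hn] at h1
  omega

theorem Tw.main (T : Tw ρ) (h4 : finrank (ZMod p) W = 4 →
    (∀ v, v ≠ 0 → p ^ 2 - 1 ∣ (stab ρ v).index) →
    (∀ c : ZMod p, c ≠ 0 → ∀ v, v ≠ 0 → ∃ h, ρ h v = c • v) → p ≤ 2 * Nat.card (ConjClasses H)) :
    p ≤ 2 * Nat.card (ConjClasses H) ∨ finrank (ZMod p) W = 1 := by
  refine or_iff_not_imp_right.2 fun h1 => ?_
  have : Nontrivial W := let ⟨a, _, ha, _⟩ := T.two; ⟨a, 0, ha⟩
  have h0 : 0 < finrank (ZMod p) W := finrank_pos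
  by_cases h2 : finrank (ZMod p) W = 2
  · exact T.of_two h2
  rcases T.scalar_or with h | hs
  · refine T.of_primitive (by omega) fun s e hs _ h3 h5 v hv => ?_
    rw [← h v hv, Nat.add_sub_cancel] at h3
    exact (Nat.Coprime.pow_left e ((Nat.coprime_primes hs Nat.prime_two).2 h5)).dvd_of_dvd_mul_left
      h3
  obtain ⟨d, hd, h | h⟩ := T.fourier hs
  · refine T.of_primitive (by omega) fun s e hs h3 h5 _ v hv => Dvd.dvd.trans ?_ (h v hv)
    rw [hd, pow_mul', ← one_pow 2, Nat.sq_sub_sq] at h5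
    exact (Nat.Coprime.pow_left e ((Nat.Prime.coprime_iff_not_dvd hs).2
      (h3 d (by omega) (by omega)))).dvd_of_dvd_mul_right h5
  by_cases h3 : d = 2
  · subst h3
    exact h4 hd h hs
  · exact T.of_latin hd (by omega) h

end Cfsg.Pass3
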