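import Cfsg.Agent.Pass3.Imp
import Cfsg.Agent.Lin.FeitR
import Cfsg.Agent.CT.SL2Even

/-! Primes dividing both orbit lengths. -/

set_option autoImplicit false

namespace Cfsg.Pass3

open Module Cfsg.Pass

universe u v

theorem pow_eq_one_of_core {G : Type u} [Group G] [Finite G] {χ : G → ℂ} (hχ : IsCharacter G χ)
    (hf : ∀ g, χ g = χ 1 → g = 1) {s : ℕ} [hs : Fact s.Prime]
    (h : ∀ N : Subgroup G, N.Normal → IsPGroup s N → N = ⊥) {y : G} {k j : ℕ}
    (hy : y ^ s ^ k = 1) (hj : charDegree χ ≤ s ^ j) : y ^ s ^ j = 1 := by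
  obtain ⟨M, hM⟩ := exists_isPModular hs.out
  have := hM.charP
  obtain ⟨X, hX⟩ := hχ.exists_matrix_valO M
  have key : ∀ g ∈ (redRep X).ker, ¬ s ∣ orderOf g → g = 1 := fun g hg hr => by
    have h1 : (IsLocalRing.residue (valO M)).mapMatrix (X g) = 1 := Matrix.toLin'.injective (by
      rw [Matrix.toLin'_one]; exact MonoidHom.mem_ker.1 hg)
    have h2 : IsUnit (∑ i ∈ Finset.range (orderOf g), X g ^ i) := by
      rw [Matrix.isUnit_iff_isUnit_det, ← IsLocalRing.residue_ne_zero_iff_isUnit, RingHom.map_det,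
        map_sum]
      simp only [map_pow, h1, one_pow, Finset.sum_const, Finset.card_range]
      rw [← Nat.cast_smul_eq_nsmul (resK M), Matrix.det_smul, Matrix.det_one, mul_one]
      exact pow_ne_zero _ (by rwa [Ne, CharP.cast_eq_zero_iff _ s])
    have h3 := mul_geom_sum (X g) (orderOf g)
    rw [← map_pow, pow_orderOf_eq_one, map_one, sub_self, h2.mul_left_eq_zero, sub_eq_zero] at h3
    exact hf g (by rw [← hX, ← hX, h3, map_one])
  have h1 := h (redRep X).ker inferInstance fun g => by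
    obtain ⟨k, hk⟩ := pRegPart_eq_one_iff.1
      (key _ (pRegPart_mem s g.2) (not_dvd_orderOf_pRegPart _))
    exact ⟨k, Subtype.ext (by rw [SubgroupClass.coe_pow, ← hk, pow_orderOf_eq_one]; rfl)⟩
  rcases isEmpty_or_nonempty (Fin (charDegree χ)) with h0 | h0
  · exact h1.le (Subsingleton.elim _ _ : redRep X _ = 1)
  have : CharP (Module.End (resK M) (Fin (charDegree χ) → resK M)) s :=
    charP_of_injective_algebraMap (algebraMap (resK M) _).injective s
  have h2 : IsNilpotent (redRep X y - 1) := ⟨s ^ k, by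
    rw [sub_pow_char_pow_of_commute _ _ (Commute.one_right _), ← map_pow, hy]; simp⟩
  have h3 : (redRep X y - 1) ^ s ^ j = 0 := by
    have h4 := LinearMap.aeval_self_charpoly (redRep X y - 1)
    rw [(LinearMap.isNilpotent_iff_charpoly _).1 h2, map_pow, Polynomial.aeval_X] at h4
    exact pow_eq_zero_of_le (by simpa using hj) h4
  rw [sub_pow_char_pow_of_commute _ _ (Commute.one_right _), ← map_pow, one_pow, sub_eq_zero] at h3
  exact h1.le h3

theorem comm_of_odd_rep {G : Type u} [Group G] [Finite G] {F : Type*} [Field F] {V : Type*}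
    [AddCommGroup V] [Module F V] (σ : G →* Module.End F V) (hσ : Function.Injective σ)
    (h : finrank F V = 1 ∨ finrank F V = 2) (h2 : (2 : F) ≠ 0) (hK : (Nat.card G : F) ≠ 0)
    (ho : ¬ 2 ∣ Nat.card G) (a b : G) : a * b = b * a := by
  rcases h with h | h
  · obtain ⟨c, hc⟩ := (LinearMap.existsUnique_eq_smul_id_of_finrank_eq_one h (σ a)).exists
    refine hσ ?_
    rw [map_mul, map_mul, hc]
    ext v
    simp
  have := Module.finite_of_finrank_eq_succ h
  let e := Module.finBasisOfFinrankEq F V h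
  have h1 : ¬ 2 ∣ (Subgroup.center G).index := fun h => ho (h.trans (Subgroup.index_dvd_card _))
  rcases dickson_mat2 ((LinearMap.toMatrixAlgEquiv e).toMonoidHom.comp σ)
    ((LinearMap.toMatrixAlgEquiv e).injective.comp hσ) h2 hK with ⟨A, hA, hi⟩ | hi
  · have h3 := A.index_ne_zero_of_finite
    have h4 : ¬ 2 ∣ A.index := fun h => ho (h.trans A.index_dvd_card)
    obtain rfl := Subgroup.index_eq_one.1 (show A.index = 1 by omega)
    exact hA a trivial b trivial
  · omega

variable {p : ℕ} [hp : Fact p.Prime] {W : Type v} [AddCommGroup W] [Module (ZMod p) W] [Finite W]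
  {H : Type u} [Group H] [Finite H] {ρ : Representation (ZMod p) H W}

theorem isCyclic_of_irreducible [Nontrivial W] (inj : Function.Injective ρ)
    (irr : ∀ U : Submodule (ZMod p) W, (∀ h, ∀ u ∈ U, ρ h u ∈ U) → U = ⊥ ∨ U = ⊤) {s : ℕ}
    [hs : Fact s.Prime] (hH : IsPGroup s H) (h : (∀ a b : H, a * b = b * a) ∨ s ≠ 2 ∧ p ≠ 2 ∧ p ≠ s ∧
      ∀ i, 0 < i → 2 * i < finrank (ZMod p) W → ¬ s ∣ p ^ i - 1) : IsCyclic H := by
  have : Finite (Module.End (ZMod p) W) := Finite.of_injective _ DFunLike.coe_injective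
  obtain ⟨D, hD⟩ : ∃ D : Subalgebra (ZMod p) (Module.End (ZMod p) W),
      ∀ x, x ∈ D ↔ ∀ h, ρ h * x = x * ρ h := ⟨Subalgebra.centralizer _ (Set.range ρ), fun x => by
    simp [Subalgebra.mem_centralizer_iff]⟩
  have : NoZeroDivisors D := ⟨fun {a b} h => by
    rcases irr (LinearMap.ker a.1) (fun g w hw => by
      rw [LinearMap.mem_ker] at hw ⊢
      rw [← Module.End.mul_apply, ← (hD _).1 a.2, Module.End.mul_apply, hw, map_zero]) with h1 | h1
    · exact Or.inr (Subtype.ext (LinearMap.ext fun w =>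
        LinearMap.ker_eq_bot'.1 h1 _ (LinearMap.congr_fun (congrArg Subtype.val h) w)))
    · exact Or.inl (Subtype.ext (LinearMap.ker_eq_top.1 h1))⟩
  have := NoZeroDivisors.to_isDomain D
  let _ := (Finite.isDomain_to_isField D).toField
  have hc : ∀ a b : H, a * b = b * a := by
    refine h.elim id fun ⟨h2, hp2, hps, h⟩ => ?_
    rcases subsingleton_or_nontrivial H with h0 | h0
    · exact fun _ _ => Subsingleton.elim _ _
    have := hH.center_nontrivial
    obtain ⟨z, hz⟩ := exists_prime_orderOf_dvd_card' (G := Subgroup.center H) s (by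
      obtain ⟨k, hk0, hk⟩ := (hH.to_subgroup (Subgroup.center H)).nontrivial_iff_card.1 this
      exact hk ▸ dvd_pow_self s hk0.ne')
    have hm : ρ z ∈ D := (hD _).2 fun g => by
      rw [← map_mul, ← map_mul, Subgroup.mem_center_iff.1 z.2 g]
    have := Fintype.ofFinite D
    have h1 : finrank (ZMod p) W ≤ 2 * finrank (ZMod p) D := not_lt.1 fun h1 => h _ finrank_pos h1 (by
      rw [← card_eq_pow (p := p) D, Nat.card_eq_fintype_card, ← hz, ← Subgroup.orderOf_coe]
      refine orderOf_dvd_of_pow_eq_one (inj ?_)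
      rw [map_pow, map_one]
      refine congrArg Subtype.val (FiniteField.pow_card_sub_one_eq_one (⟨_, hm⟩ : D) fun h0 => ?_)
      obtain ⟨v, hv⟩ := exists_ne (0 : W)
      exact apply_ne_zero _ hv (LinearMap.congr_fun (congrArg Subtype.val h0) v))
    have : FiniteDimensional D W := Module.Finite.of_finite
    have h3 := finrank_mul_finrank (ZMod p) D W
    have h4 : 0 < finrank (ZMod p) W := finrank_pos
    let σ : H →* Module.End D W :=
      { toFun := fun c => ⟨(ρ c).toAddHom, fun x w => LinearMap.congr_fun ((hD _).1 x.2 c) w⟩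
        map_one' := by ext; simp
        map_mul' := fun a b => by ext; simp }
    have hch : ∀ m : ℕ, ¬ p ∣ m → (m : D) ≠ 0 := fun m hm h => hm (by
      rwa [← map_natCast (algebraMap (ZMod p) D), map_eq_zero, ZMod.natCast_eq_zero_iff] at h)
    obtain ⟨k, hk⟩ := hH.exists_card_eq
    refine comm_of_odd_rep σ (fun a b h => inj (LinearMap.ext fun w => LinearMap.congr_fun h w)) ?_
      (hch 2 fun h => hp2 ((Nat.prime_dvd_prime_iff_eq hp.out Nat.prime_two).1 h))
      (hch _ fun h => hps ((Nat.prime_dvd_prime_iff_eq hp.out hs.out).1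
        (hp.out.dvd_of_dvd_pow (hk ▸ h))))
      fun h => h2 ((Nat.prime_dvd_prime_iff_eq Nat.prime_two hs.out).1
        (Nat.prime_two.dvd_of_dvd_pow (hk ▸ h))).symm
    have h5 : finrank D W ≤ 2 := by
      by_contra h2
      have := Nat.mul_le_mul_left (finrank (ZMod p) D) (show 3 ≤ finrank D W by omega)
      omega
    have h6 : finrank D W ≠ 0 := fun h => by rw [h] at h3; omega
    omega
  exact isCyclic_of_injective_ringHom (R := D) (ρ.codRestrict D fun g => (hD _).2 fun h => by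
    rw [← map_mul, ← map_mul, hc]) fun a b h => inj (congrArg Subtype.val h)

omit [Finite W] in
theorem pow_dvd_relIndex {s e : ℕ} [hs : Fact s.Prime] (S : Sylow s H) {K : Subgroup H}
    (h : s ^ e ∣ K.index) : s ^ e ∣ K.relIndex S := by
  have h1 := Subgroup.relIndex_mul_index (inf_le_left : K ⊓ S ≤ K)
  have h2 := Subgroup.relIndex_mul_index (inf_le_right : K ⊓ S ≤ S)
  rw [Subgroup.inf_relIndex_right] at h2
  refine (Nat.Coprime.pow_left e ((Nat.Prime.coprime_iff_not_dvd hs.out).2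
    S.not_dvd_index)).dvd_of_dvd_mul_right ?_
  rw [h2, ← h1]
  exact h.mul_left _

/-- elements of large prime power order -/
theorem exists_dvd_orderOf [Nontrivial W] {s e : ℕ} [hs : Fact s.Prime] (S : Sylow s H)
    (he : ∀ v, v ≠ 0 → s ^ e ∣ (stab ρ v).index)
    (h : (∀ a ∈ (S : Subgroup H), ∀ b ∈ (S : Subgroup H), a * b = b * a) ∨ s ≠ 2 ∧ p ≠ 2 ∧ p ≠ s ∧
      ∀ i, 0 < i → 2 * i < finrank (ZMod p) W → ¬ s ∣ p ^ i - 1) :
    ∃ x ∈ (S : Subgroup H), s ^ e ∣ orderOf x := by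
  obtain ⟨U, ⟨hU0, hU⟩, hmin⟩ := exists_minimal_of_wellFoundedLT
    (fun U : Submodule (ZMod p) W => U ≠ ⊥ ∧ ∀ g ∈ (S : Subgroup H), ∀ u ∈ U, ρ g u ∈ U)
    ⟨⊤, top_ne_bot, fun _ _ _ _ => trivial⟩
  let σ : S →* Module.End (ZMod p) U :=
    { toFun := fun k => (ρ k).restrict (hU k k.2)
      map_one' := by ext; simp
      map_mul' := fun a b => by ext; simp }
  let τ : S ⧸ σ.ker →* Module.End (ZMod p) U := QuotientGroup.lift _ σ le_rfl
  have := Submodule.nontrivial_iff_ne_bot.2 hU0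
  have := isCyclic_of_irreducible (p := p) (ρ := τ) (fun a b h => by
    obtain ⟨a, rfl⟩ := QuotientGroup.mk_surjective a
    obtain ⟨b, rfl⟩ := QuotientGroup.mk_surjective b
    refine QuotientGroup.eq.2 (MonoidHom.mem_ker.2 ?_)
    rw [map_mul, ← show σ a = σ b from h, ← map_mul, inv_mul_cancel, map_one])
    (fun Y hY => or_iff_not_imp_left.2 fun h0 => eq_top_iff.2 fun u _ => by
      obtain ⟨y, hy, h1⟩ := hmin (y := Y.map U.subtype) ⟨fun h1 => h0 (by
        rwa [← Submodule.map_bot U.subtype, (Submodule.map_injective_of_injective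
          U.injective_subtype).eq_iff] at h1), by
        rintro g hg _ ⟨y, hy, rfl⟩
        exact ⟨_, hY (⟨g, hg⟩ : S) y hy, rfl⟩⟩ (Submodule.map_subtype_le U Y) u.2
      exact Subtype.ext h1 ▸ hy) (S.isPGroup'.to_quotient _) (h.imp (fun h a b => by
        obtain ⟨a, rfl⟩ := QuotientGroup.mk_surjective a
        obtain ⟨b, rfl⟩ := QuotientGroup.mk_surjective b
        exact congrArg QuotientGroup.mk (Subtype.ext (h a a.2 b b.2) : a * b = b * a))
      fun ⟨h1, h2, h3, h4⟩ => ⟨h1, h2, h3, fun i hi h => h4 i hi (h.trans_le U.finrank_le)⟩)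
  obtain ⟨x, hx⟩ := IsCyclic.exists_ofOrder_eq_natCard (α := S ⧸ σ.ker)
  obtain ⟨x, rfl⟩ := QuotientGroup.mk_surjective x
  obtain ⟨v, hv⟩ := exists_ne (0 : U)
  refine ⟨x, x.2, (pow_dvd_relIndex S (he v fun h => hv (Subtype.ext h))).trans
    ((Subgroup.index_dvd_of_le (H := σ.ker) fun g hg => ?_).trans ?_)⟩
  · exact congrArg Subtype.val (LinearMap.congr_fun (MonoidHom.mem_ker.1 hg) v)
  · rw [Subgroup.orderOf_coe, Subgroup.index, ← hx]
    exact orderOf_map_dvd (QuotientGroup.mk' σ.ker) x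

theorem Tw.exists_lift (T : Tw ρ) : ∃ ζ : IrrCharacter H, (∀ g, ζ.1 g = ζ.1 1 → g = 1) ∧
    charDegree ζ.1 ≤ finrank (ZMod p) W ∧
    ∀ A : Subgroup H, (∀ v, v ≠ 0 → ¬ A ≤ stab ρ v) → fixDim A ζ.1 = 0 := by
  have := Fintype.ofFinite H
  have : Nontrivial W := let ⟨a, _, ha, _⟩ := T.two; ⟨a, 0, ha⟩
  obtain ⟨χ, hχ, h1, -⟩ := exists_brauer_lift_rep ρ (MonoidHom.id H) T.cop
  have h2 : charDegree χ = finrank (ZMod p) W := by
    have h3 := h1 ⊥
    have h4 : Representation.invariants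
        (ρ.comp ((MonoidHom.id H).comp (⊥ : Subgroup H).subtype)) = ⊤ := eq_top_iff.2 fun v _ =>
      (Representation.mem_invariants _ _).2 fun g => by rw [Subsingleton.elim g 1, map_one]; rfl
    rw [fixDim_eq_of_le_charKer hχ bot_le, h4,
      Nat.card_congr Submodule.topEquiv.toEquiv, card_eq_pow (p := p)] at h3
    exact (Nat.pow_right_injective hp.out.two_le h3).symm
  obtain ⟨ζ, hζ⟩ := hχ.exists_irr_constituent (fun h0 => by
    have h3 := hχ.one_eq_charDegree
    rw [h2, h0, Pi.zero_apply, eq_comm, Nat.cast_eq_zero] at h3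
    exact finrank_pos.ne' h3)
  have key : ∀ A : Subgroup H, (∀ v, v ≠ 0 → ¬ A ≤ stab ρ v) → fixDim A ζ.1 = 0 := fun A hA => by
    refine hχ.fixDim_eq_zero_of_constituent (by_contra fun h3 => ?_) hζ
    have : Nontrivial (Representation.invariants (ρ.comp ((MonoidHom.id H).comp A.subtype))) :=
      Finite.one_lt_card_iff_nontrivial.1 (h1 A ▸ Nat.one_lt_pow h3 hp.out.one_lt)
    obtain ⟨v, hv⟩ := exists_ne
      (0 : Representation.invariants (ρ.comp ((MonoidHom.id H).comp A.subtype)))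
    exact hA v (fun h => hv (Subtype.ext h)) fun k hk => v.2 ⟨k, hk⟩
  refine ⟨ζ, ζ.isCharacter.charKer_eq_bot_iff.1 (by_contra fun h0 => ?_),
    h2 ▸ hχ.charDegree_le_of_constituent ζ hζ, key⟩
  refine ζ.charDegree_pos.ne' ((fixDim_eq_of_le_charKer ζ.isCharacter le_rfl).symm.trans
    (key _ fun v hv h => h0 ((Subgroup.eq_bot_iff_forall _).2 fun k hk => T.inj ?_)))
  have h3 := (T.irreducible (Representation.invariants (ρ.comp (charKer ζ.1).subtype))
    fun g u hu k => by
      change ρ k (ρ g u) = _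
      rw [← mul_apply', show k * g = g * (g⁻¹ * k * g⁻¹⁻¹) by group, mul_apply']
      exact congrArg _ (hu ⟨_, Subgroup.Normal.conj_mem inferInstance _ k.2 _⟩)).resolve_left
    fun h4 => hv ((Submodule.eq_bot_iff _).1 h4 v fun k => h k.2)
  exact (map_one ρ).symm ▸ LinearMap.ext fun w => (h3.ge (Submodule.mem_top (x := w))) ⟨k, hk⟩

/-- large primes dividing both orbit lengths -/
theorem Tw.le_of_dvd_index (T : Tw ρ) {s : ℕ} [hs : Fact s.Prime]
    (hN : ∀ N : Subgroup H, N.Normal → IsPGroup s N → N = ⊥)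
    (h : ∀ v, v ≠ 0 → s ∣ (stab ρ v).index) : s ≤ finrank (ZMod p) W + 1 ∨
      (s ≤ 2 * finrank (ZMod p) W + 1 ∧ Nat.card H ≤ s ^ 3 * Nat.card (ConjClasses H)) := by
  classical
  refine or_iff_not_imp_left.2 fun h0 => ?_
  obtain ⟨ζ, hf, hd, hfix⟩ := T.exists_lift
  obtain ⟨P⟩ : Nonempty (Sylow s H) := inferInstance
  have h1 : ∀ v, v ≠ 0 → ¬ (P : Subgroup H) ≤ stab ρ v := fun v hv h1 =>
    P.not_dvd_index ((h v hv).trans (Subgroup.index_dvd_of_le h1))
  have hP0 : (P : Subgroup H) ≠ ⊥ := fun h2 =>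
    let ⟨a, _, ha, _⟩ := T.two; h1 a ha (h2 ▸ bot_le)
  have hnn : ¬ (P : Subgroup H).Normal := fun h2 => hP0 (hN _ h2 P.isPGroup')
  have hP := ζ.card_sylow_of_small hf (by omega) (fun z hz hz' => Subgroup.zpowers_eq_bot.1
    (hN _ ⟨fun x hx g => by
      rwa [Subgroup.mem_center_iff.1 (Subgroup.zpowers_le.2 hz hx) g, mul_inv_cancel_right]⟩
      hz'.isPGroup)) hnn
  obtain ⟨F⟩ := nonempty_autFrame hP
  obtain ⟨he, l, hl, ⟨m, hm, h2⟩ | ⟨h2, h3, -⟩⟩ := ζ.small_cases F (by omega) fun hk =>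
    hP0 (le_bot_iff.1 (ζ.charKer_eq_bot_iff.2 hf ▸ hk))
  · have h3 := F.eq_of_orb hnn ζ.isCharacter hf (by omega) he h2
    have h4 := ζ.charDegree_pos
    have h5 : charDegree ζ.1 = F.e := by
      match m with
      | 0 => omega
      | 1 => omega
      | m + 2 => rw [add_mul] at hm; omega
    rcases ζ.small_reduce hf (by omega) hnn with ⟨⟨e⟩, -⟩ | ⟨-, _, _, F', -, -, h6, h7⟩
    · refine ⟨by omega, ?_⟩
      have h6 := card_sl2_add_le (F := ZMod s)
      have h7 := Nat.le_of_dvd Nat.card_pos (Subgroup.card_quotient_dvd_card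
        (Subgroup.center (Matrix.SpecialLinearGroup (Fin 2) (ZMod s))))
      have h8 := card_le_index_mul (A := Subgroup.center H) (C := ⊤)
        fun a ha c _ => Subgroup.mem_center_iff.1 ha c
      rw [ZMod.card] at h6
      rw [Subgroup.index_top, one_mul] at h8
      rw [← (Subgroup.center H).index_mul_card]
      exact Nat.mul_le_mul (((Nat.card_congr e.toEquiv).le.trans h7).trans (by omega)) h8
    · omega
  · have h4 := F.card_mul_rmul_of_val ζ.isCharacter (c := -1) hl (fun v hv => by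
      rw [h3 v hv]; simp) 1
    rw [ζ.isCharacter.rmul_one, hfix _ h1, if_neg fun h => h.ne_one hl rfl] at h4
    omega

theorem cube_le_eleven_pow {n : ℕ} (hn : 4 ≤ n) : (2 * n + 1) ^ 3 ≤ 11 ^ (n - 1) := by
  induction n, hn using Nat.le_induction with
  | base => norm_num
  | succ n hn ih =>
    obtain ⟨m, rfl⟩ : ∃ m, n = m + 1 := ⟨n - 1, by omega⟩
    rw [Nat.add_sub_cancel] at ih ⊢
    rw [pow_succ 11 m]
    refine le_trans ?_ (Nat.mul_le_mul_right 11 ih)
    calc _ ≤ (2 * (2 * (m + 1) + 1)) ^ 3 := Nat.pow_le_pow_left (by omega) 3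
      _ ≤ _ := by rw [mul_pow]; omega

/-- the bounds for primitive primes -/
theorem Tw.prim_bound (T : Tw ρ) (hn : 3 ≤ finrank (ZMod p) W)
    (hk : ¬ p ≤ 2 * Nat.card (ConjClasses H)) {s : ℕ} (hs : s.Prime) (h2 : s ≠ 2)
    (h : ∀ i, 0 < i → 2 * i < finrank (ZMod p) W → ¬ s ∣ p ^ i - 1) {e : ℕ}
    (he : ∀ v, v ≠ 0 → s ^ (e + 1) ∣ (stab ρ v).index) :
    s ≤ 2 * finrank (ZMod p) W + 1 ∧ (4 ≤ finrank (ZMod p) W → s ≤ finrank (ZMod p) W + 1) ∧
      s ^ e < finrank (ZMod p) W := by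
  have := Fact.mk hs
  have hN : ∀ N : Subgroup H, N.Normal → IsPGroup s N → N = ⊥ := fun N _ hN =>
    T.eq_bot_of_isPGroup hn hk h hN
  have h1 := T.le_of_dvd_index hN fun v hv => (dvd_pow_self s e.succ_ne_zero).trans (he v hv)
  refine ⟨by omega, fun h4 => h1.resolve_right fun h3 => hk (T.le_of_card_le (by omega)
    ((Nat.pow_le_pow_left h3.1 3).trans (cube_le_eleven_pow h4)) h3.2), not_le.1 fun h3 => ?_⟩
  have : Nontrivial W := nontrivial_of_finrank_pos (R := ZMod p) (by omega)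
  obtain ⟨S⟩ : Nonempty (Sylow s H) := inferInstance
  have h4 := T.eleven_le (by omega) hk
  obtain ⟨v, hv⟩ := exists_ne (0 : W)
  obtain ⟨x, hx, h5⟩ := exists_dvd_orderOf S he (.inr ⟨h2, by omega, fun e => T.cop (e ▸
    ((dvd_pow_self s (Nat.succ_ne_zero _)).trans (he v hv)).trans (Subgroup.index_dvd_card _)), h⟩)
  obtain ⟨ζ, hf, hd, -⟩ := T.exists_lift
  obtain ⟨k, hk⟩ := S.isPGroup' ⟨x, hx⟩
  have h6 := h5.trans (orderOf_dvd_of_pow_eq_one (pow_eq_one_of_core ζ.isCharacter hf hN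
    (congrArg Subtype.val hk) (hd.trans h3)))
  exact absurd ((Nat.pow_dvd_pow_iff_le_right hs.one_lt).1 h6) (by omega)

end Cfsg.Pass3
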