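import Cfsg.Agent.S4878

/-! Reduction of S4881 to a statement on coprime linear groups with two orbits. -/

set_option autoImplicit false

namespace Cfsg.Pass3

open Module Cfsg.Pass

universe u v

/-- a faithful coprime action with exactly two orbits on non-zero vectors -/
structure Tw {p : ℕ} [Fact p.Prime] {W : Type v} [AddCommGroup W] [Module (ZMod p) W]
    {H : Type u} [Group H] (ρ : Representation (ZMod p) H W) : Prop where
  inj : Function.Injective ρ
  cop : ¬ p ∣ Nat.card H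
  two : ∃ a b : W, a ≠ 0 ∧ b ≠ 0 ∧ (∀ h, ρ h a ≠ b) ∧
    ∀ w, w ≠ 0 → (∃ h, ρ h a = w) ∨ ∃ h, ρ h b = w

/-- the linear statement -/
def Core (p : ℕ) [Fact p.Prime] : Prop :=
  ∀ (H : Type u) [Group H] [Finite H] (W : Type u) [AddCommGroup W] [Module (ZMod p) W] [Finite W]
    (ρ : Representation (ZMod p) H W), Tw ρ →
    p ≤ 2 * Nat.card (ConjClasses H) ∨ finrank (ZMod p) W = 1

variable {G : Type u} [Group G] [Finite G] {p : ℕ} [hp : Fact p.Prime]

theorem rc_surj {Q : Type v} [Group Q] (f : G →* Q) (hf : Function.Surjective f) :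
    ∃ F : RC p G → RC p Q, Function.Surjective F ∧ ∀ c, (F c).1 = ConjClasses.map f c.1 := by
  refine ⟨fun c => ⟨ConjClasses.map f c.1, ?_⟩, ?_, fun _ => rfl⟩
  · obtain ⟨g, h1, h2⟩ := c.2
    exact ⟨f g, by rw [← h1]; rfl, fun h => h2 (h.trans (orderOf_map_dvd f g))⟩
  · rintro ⟨_, y, rfl, hy⟩
    obtain ⟨x, hx, rfl⟩ := exists_pRegular_lift (p := p) f hf hy
    exact ⟨⟨_, x, rfl, hx⟩, rfl⟩

theorem le_of_conj (hs : IsPSolvable p G) (hdiv : p ∣ Nat.card G)
    (hconj : ∀ x y : G, x ≠ 1 → y ≠ 1 → (∃ k : ℕ, orderOf x = p ^ k) →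
      (∃ k : ℕ, orderOf y = p ^ k) → IsConj x y) : p ≤ 2 * Nat.card (RC p G) := by
  have := hp.out.two_le
  rcases Agent.S4878.result p hs hdiv hconj with h | ⟨h, -⟩ | ⟨h1, h, -⟩
  · change p ≤ Nat.card (RC p G) at h
    omega
  · change Nat.card (RC p G) = _ at h
    omega
  · change Nat.card (RC p G) = _ at h
    omega

theorem exists_affine {V H : Subgroup G} [hVn : V.Normal]
    (hc : V.IsComplement' H) (hV : Nat.card V = p) (hC : Subgroup.centralizer (V : Set G) ≤ V) :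
    ∃ f : G →* affineGroup (ZMod p), Function.Injective f := by
  let e : Multiplicative (ZMod p) ≃* V := mulEquivOfPrimeCardEq (by simp) hV
  let w : ZMod p → G := fun x => e (Multiplicative.ofAdd x)
  have hwV : ∀ x, w x ∈ V := fun x => (e _).2
  have hwa : ∀ x y, w (x + y) = w x * w y := fun x y => by simp only [w, ofAdd_add, map_mul]; rfl
  have hw0 : w 0 = 1 := by simp [w]
  have hwi : Function.Injective w := fun x y h => e.injective (Subtype.ext h)
  have hws : ∀ v ∈ V, ∃ x, w x = v := fun v hv =>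
    ⟨(e.symm ⟨v, hv⟩).toAdd, by simp [w]⟩
  have hwn : ∀ (n : ℕ) x, w (n * x) = w x ^ n := fun n x => by
    induction n with
    | zero => simp [hw0]
    | succ n ih => rw [Nat.cast_succ, add_mul, one_mul, hwa, ih, pow_succ]
  have hd : ∀ v ∈ V, ∀ v' ∈ V, (v : G ⧸ H) = v' → v = v' := fun v hv v' hv' h =>
    inv_mul_eq_one.1 (Subgroup.mem_bot.1 (hc.disjoint.le_bot
      ⟨V.mul_mem (V.inv_mem hv) hv', QuotientGroup.eq.1 h⟩))
  have hβ : Function.Bijective fun x => (w x : G ⧸ H) := by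
    refine ⟨fun x y h => hwi (hd _ (hwV x) _ (hwV y) h), fun q => ?_⟩
    obtain ⟨g, rfl⟩ := QuotientGroup.mk_surjective q
    obtain ⟨⟨v, h⟩, rfl⟩ := hc.2 g
    obtain ⟨x, hx⟩ := hws v v.2
    exact ⟨x, QuotientGroup.eq.2 (by simp [hx])⟩
  let φ : G →* Equiv.Perm (ZMod p) :=
    (Equiv.ofBijective _ hβ).symm.permCongrHom.toMonoidHom.comp (MulAction.toPermHom G (G ⧸ H))
  have hφ : ∀ g x y, φ g x = y ↔ ((g * w x : G) : G ⧸ H) = w y := fun g x y =>
    Equiv.symm_apply_eq (Equiv.ofBijective _ hβ) (x := ((g * w x : G) : G ⧸ H))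
  have hconj : ∀ g a, g * w 1 * g⁻¹ = w a → ∀ x, g * w x * g⁻¹ = w (a * x) := fun g a h x => by
    obtain ⟨n, rfl⟩ := ZMod.natCast_zmod_surjective x
    rw [mul_comm a, hwn, ← h, conj_pow, ← hwn, mul_one]
  have hform : ∀ (b : ZMod p) (h : H) a, h * w 1 * h.1⁻¹ = w a → ∀ x, φ (w b * h) x = a * x + b :=
    fun b h a ha x => by
      rw [hφ, add_comm, hwa, ← hconj h a ha, eq_comm, QuotientGroup.eq]
      simp [mul_assoc]
  have hw1 : ∀ a, a ≠ 0 → w a ≠ 1 := fun a ha h => ha (hwi (h.trans hw0.symm))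
  refine ⟨φ.codRestrict _ fun g => ?_, ?_⟩
  · obtain ⟨⟨v, h⟩, rfl⟩ := hc.2 g
    obtain ⟨b, hb⟩ := hws v v.2
    obtain ⟨a, ha⟩ := hws _ (hVn.conj_mem _ (hwV 1) h)
    refine ⟨Units.mk0 a ?_, b, fun x => ?_⟩
    · rintro rfl
      rw [hw0, eq_comm, mul_inv_eq_one, mul_eq_left] at ha
      exact hw1 1 one_ne_zero ha
    · simp only [← hb]
      exact hform b h a ha.symm x
  · rw [injective_iff_map_eq_one]
    intro g hg
    have h1 : ∀ x, ((g * w x : G) : G ⧸ H) = w x := fun x =>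
      (hφ g x x).1 (DFunLike.congr_fun (congrArg Subtype.val hg) x)
    have h2 : g ∈ H := by simpa [hw0] using QuotientGroup.eq.1 (h1 0).symm
    refine Subgroup.mem_bot.1 (hc.disjoint.le_bot ⟨hC fun v hv => ?_, h2⟩)
    obtain ⟨x, rfl⟩ := hws v hv
    rw [← mul_inv_eq_iff_eq_mul.1 (hd _ (hVn.conj_mem _ hv g) _ hv
      ((QuotientGroup.eq.2 (by simpa [mul_assoc] using h2)).trans (h1 x)))]

section Rep

variable {W : Type v} [AddCommGroup W] [Module (ZMod p) W] [Finite W]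
  {ρ : Representation (ZMod p) G W}

/-- the orbit of a vector -/
def orb (ρ : Representation (ZMod p) G W) (a : W) : Set W := {w | ∃ h, ρ h a = w}

omit [Finite G] [Finite W] in
theorem index_stab (a : W) : (stab ρ a).index = (orb ρ a).ncard := by
  let _ : MulAction G W := MulAction.compHom W ρ
  exact MulAction.index_stabilizer G a

theorem Tw.exists_index (T : Tw ρ) : ∃ a b : W, a ≠ 0 ∧ b ≠ 0 ∧ (∀ h, ρ h a ≠ b) ∧
    (∀ w, w ≠ 0 → (∃ h, ρ h a = w) ∨ ∃ h, ρ h b = w) ∧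
    (stab ρ a).index + (stab ρ b).index + 1 = p ^ finrank (ZMod p) W := by
  obtain ⟨a, b, ha, hb, h1, h2⟩ := T.two
  refine ⟨a, b, ha, hb, h1, h2, ?_⟩
  have h3 : orb ρ a ∪ orb ρ b = {0}ᶜ := by
    ext w
    refine ⟨?_, h2 w⟩
    rintro (⟨h, rfl⟩ | ⟨h, rfl⟩)
    exacts [apply_ne_zero h ha, apply_ne_zero h hb]
  have h4 : Disjoint (orb ρ a) (orb ρ b) := Set.disjoint_left.2 fun w ⟨g, hg⟩ ⟨h, hh⟩ =>
    h1 (h⁻¹ * g) (by
      rw [map_mul, Module.End.mul_apply, hg, ← hh, ← Module.End.mul_apply, ← map_mul,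
        inv_mul_cancel, map_one, Module.End.one_apply])
  rw [index_stab, index_stab, ← Set.ncard_union_eq h4, h3, ← card_eq_pow (p := p) W,
    ← Set.ncard_add_ncard_compl ({0} : Set W), Set.ncard_singleton, add_comm]

theorem Tw.of_one (T : Tw ρ) (h1 : finrank (ZMod p) W = 1) :
    Nat.card (ConjClasses G) = Nat.card G ∧ 2 * Nat.card G + 1 = p := by
  have h2 := fun a => (LinearMap.existsUnique_eq_smul_id_of_finrank_eq_one h1 (ρ a)).exists
  let _ : CommGroup G := ⟨fun a b => T.inj (by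
    obtain ⟨c, hc⟩ := h2 a
    rw [map_mul, map_mul, hc]
    ext v
    simp)⟩
  refine ⟨(Nat.card_congr ConjClasses.mkEquiv).symm, ?_⟩
  have h3 : ∀ a : W, a ≠ 0 → (stab ρ a).index = Nat.card G := fun a ha => by
    rw [show stab ρ a = ⊥ from (Subgroup.eq_bot_iff_forall _).2 fun g hg => T.inj ?_,
      Subgroup.index_bot]
    obtain ⟨c, hc⟩ := h2 g
    have h4 : ρ g a = a := hg
    rw [hc] at h4
    rw [hc, map_one, (smul_left_injective (ZMod p) ha (h4.trans (one_smul _ a).symm) : c = 1),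
      one_smul]
    rfl
  obtain ⟨a, b, ha, hb, -, -, h⟩ := T.exists_index
  rw [h3 a ha, h3 b hb, h1, pow_one] at h
  omega

end Rep

theorem core_mul (hc : Core.{u} p) {V : Type u} [CommGroup V] [Finite V]
    (hV : ∀ v : V, v ^ p = 1) (φ : G →* MulAut V) (inj : Function.Injective φ)
    (cop : ¬ p ∣ Nat.card G) {a b : V} (ha : a ≠ 1) (hb : b ≠ 1) (hab : ∀ g, φ g a ≠ b)
    (h : ∀ w, w ≠ 1 → (∃ g, φ g a = w) ∨ ∃ g, φ g b = w) :
    p ≤ 2 * Nat.card (ConjClasses G) ∨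
      (Nat.card V = p ∧ Nat.card (ConjClasses G) = Nat.card G ∧ 2 * Nat.card G + 1 = p) := by
  have _ : Module (ZMod p) (Additive V) := AddCommGroup.zmodModule fun v => hV v.toMul
  let ρ : G →* Module.End (ZMod p) (Additive V) :=
    { toFun := fun g => (MonoidHom.toAdditive (φ g).toMonoidHom).toZModLinearMap p
      map_one' := by rw [map_one]; rfl
      map_mul' := fun a b => by rw [map_mul]; rfl }
  have T : Tw (W := Additive V) ρ := ⟨fun a b h => inj (MulEquiv.ext fun v =>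
    LinearMap.congr_fun h (Additive.ofMul v)), cop, Additive.ofMul a, Additive.ofMul b, ha, hb,
      hab, h⟩
  have hcard : Nat.card V = p ^ finrank (ZMod p) (Additive V) := card_eq_pow (p := p) (Additive V)
  exact (hc G _ ρ T).imp id fun h1 => ⟨by rw [hcard, h1, pow_one], T.of_one h1⟩

theorem core (hcore : Core.{u} p) (hs : IsPSolvable p G) (hO : pPrimeCore p G = ⊥)
    (hdiv : p ∣ Nat.card G) {a b : G}
    (h2 : ∀ x : G, x ≠ 1 → (∃ k : ℕ, orderOf x = p ^ k) → IsConj a x ∨ IsConj b x) :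
    p ≤ 2 * Nat.card (RC p G) ∨ (p ≤ 2 * Nat.card (RC p G) + 1 ∧ p ≠ 2 ∧
      2 * Nat.card G = p * (p - 1) ∧ ∃ f : G →* affineGroup (ZMod p), Function.Injective f) := by
  by_cases hconj : ∀ x y : G, x ≠ 1 → y ≠ 1 → (∃ k : ℕ, orderOf x = p ^ k) →
      (∃ k : ℕ, orderOf y = p ^ k) → IsConj x y
  · exact .inl (le_of_conj hs hdiv hconj)
  push Not at hconj
  obtain ⟨x, y, hx1, hy1, hx, hy, hxy⟩ := hconj
  have h3 : ∀ z : G, z ≠ 1 → (∃ k : ℕ, orderOf z = p ^ k) → IsConj x z ∨ IsConj y z :=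
    fun z hz1 hz => by
      rcases h2 x hx1 hx with h | h <;> rcases h2 y hy1 hy with h' | h' <;>
        rcases h2 z hz1 hz with h'' | h'' <;>
        first
        | exact .inl (IsConj.trans h.symm h'')
        | exact .inr (IsConj.trans h'.symm h'')
        | exact (hxy (IsConj.trans h.symm h')).elim
  set V := pCore p G with hVdef
  have hVp : IsPGroup p V := isPGroup_pCore p G
  have : Nontrivial G := ⟨x, 1, hx1⟩
  have hV : V ≠ ⊥ := hs.pCore_ne_bot_or.resolve_right (not_not.2 hO)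
  have hC := hs.centralizer_pCore_le hO
  obtain ⟨M, hM, hMV⟩ := exists_isMinNormal_le (inferInstance : V.Normal) hV
  have hE := hM.isElementaryAbelian_of_isPGroup (hVp.to_le hMV)
  have hMn := hM.1
  have hcl : ∀ s t : G, IsConj s t → s ∈ M → t ∈ M := fun s t h hs => by
    obtain ⟨c, rfl⟩ := isConj_iff.1 h
    exact hMn.conj_mem s hs c
  by_cases hi : p ∣ M.index
  · obtain ⟨F, hF, -⟩ := rc_surj (p := p) (QuotientGroup.mk' M) (QuotientGroup.mk'_surjective M)
    refine .inl ((le_of_conj (hs.quotient M) hi fun s t hs1 ht1 hs ht => ?_).trans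
      (Nat.mul_le_mul_left 2 (Nat.card_le_card_of_surjective F hF)))
    obtain ⟨s, h4, rfl⟩ := exists_pElement_lift _ (QuotientGroup.mk'_surjective M) hs
    obtain ⟨t, h5, rfl⟩ := exists_pElement_lift _ (QuotientGroup.mk'_surjective M) ht
    have hs2 : s ∉ M := fun h => hs1 ((QuotientGroup.eq_one_iff s).2 h)
    have ht2 : t ∉ M := fun h => ht1 ((QuotientGroup.eq_one_iff t).2 h)
    obtain ⟨⟨m, hm⟩, hm1⟩ := Subgroup.ne_bot_iff_exists_ne_one.1 hM.2.1
    refine MonoidHom.map_isConj _ ?_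
    rcases h3 m (fun h => hm1 (Subtype.ext h)) (exists_orderOf_eq_pow_of_mem hVp (hMV hm)) with
      h | h <;> rcases h3 s (fun h => hs2 (h ▸ M.one_mem)) h4 with h' | h' <;>
      rcases h3 t (fun h => ht2 (h ▸ M.one_mem)) h5 with h'' | h'' <;>
      first
      | exact IsConj.trans h'.symm h''
      | exact (hs2 (hcl _ _ (IsConj.trans h.symm h') hm)).elim
      | exact (ht2 (hcl _ _ (IsConj.trans h.symm h'') hm)).elim
  have hall : ∀ z : G, (∃ k : ℕ, orderOf z = p ^ k) → z ∈ M := fun z ⟨k, hz⟩ =>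
    mem_of_coprime_orderOf_index (hz ▸ Nat.Coprime.pow_left _
      ((Nat.Prime.coprime_iff_not_dvd hp.out).2 hi))
  obtain rfl : M = V := le_antisymm hMV fun z hz => hall z (exists_orderOf_eq_pow_of_mem hVp hz)
  obtain ⟨H, hc⟩ := Subgroup.exists_right_complement'_of_coprime (N := V) (by
    obtain ⟨k, hk⟩ := hVp.exists_card_eq
    rw [hk]
    exact Nat.Coprime.pow_left _ ((Nat.Prime.coprime_iff_not_dvd hp.out).2 hi))
  have hH : ¬ p ∣ Nat.card H := by rwa [← hc.symm.index_eq_card]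
  obtain ⟨e⟩ := nonempty_mulEquiv_quotient_of_isComplement' hc
  have hk : Nat.card (ConjClasses H) ≤ Nat.card (RC p G) :=
    Nat.card_le_card_of_surjective _ (rc_surjective (e.symm.toMonoidHom.comp (QuotientGroup.mk' _))
      (e.symm.surjective.comp (QuotientGroup.mk'_surjective _)) hH)
  let _ : CommGroup V := ⟨hE.1.is_comm.comm⟩
  have hcomm : ∀ a ∈ V, ∀ b ∈ V, a * b = b * a := fun a ha b hb =>
    congrArg Subtype.val (hE.1.is_comm.comm ⟨a, ha⟩ ⟨b, hb⟩)
  have hmv : ∀ v w : V, IsConj v.1 w.1 →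
      ∃ g : H, (MulAut.conjNormal.comp H.subtype) g v = w := fun v w h => by
    obtain ⟨g, hg⟩ := isConj_iff.1 h
    obtain ⟨⟨u, h⟩, rfl⟩ := hc.2 g
    refine ⟨h, Subtype.ext ?_⟩
    calc h.1 * v * h.1⁻¹ = u.1⁻¹ * (u * h * v * (u.1 * h.1)⁻¹) * u := by group
      _ = w := by rw [hg, mul_assoc, ← hcomm u u.2 _ w.2, inv_mul_cancel_left]
  refine (core_mul hcore (V := V) (fun v => Subtype.ext (hE.2 _ v.2))
    (MulAut.conjNormal.comp H.subtype)
    ((injective_iff_map_eq_one _).2 fun g hg => Subtype.ext (Subgroup.mem_bot.1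
      (hc.disjoint.le_bot ⟨hC fun v hv => ?_, g.2⟩))) hH (a := ⟨x, hall x hx⟩) (b := ⟨y, hall y hy⟩)
    (fun h => hx1 (congrArg Subtype.val h)) (fun h => hy1 (congrArg Subtype.val h))
    (fun g hg => hxy (isConj_iff.2 ⟨g, congrArg Subtype.val hg⟩)) fun w hw =>
      (h3 w (fun h => hw (Subtype.ext h)) (exists_orderOf_eq_pow_of_mem hVp w.2)).imp
        (hmv _ _) (hmv _ _)).imp (fun h => by omega) fun ⟨h4, h5, h6⟩ =>
          ⟨by omega, ?_, ?_, exists_affine hc h4 hC⟩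
  · exact (mul_inv_eq_iff_eq_mul.1 (congrArg Subtype.val (DFunLike.congr_fun hg ⟨v, hv⟩))).symm
  · omega
  · rw [← hc.card_mul, h4, mul_left_comm, show p - 1 = 2 * Nat.card H by omega]

theorem reduce (hcore : Core.{u} p) (hs : IsPSolvable p G)
    (h3 : Nat.card {c : ConjClasses G // ∃ g : G, ConjClasses.mk g = c ∧
      ∃ k : ℕ, orderOf g = p ^ k} = 3) :
    p - 1 ≤ 2 * Nat.card (RC p G) ∧ (2 * Nat.card (RC p G) = p - 1 ↔
      (p ≠ 2 ∧ 2 * Nat.card G = p * (p - 1) ∧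
        ∃ f : G →* affineGroup (ZMod p), Function.Injective f)) := by
  classical
  have hp1 := hp.out.one_lt
  obtain ⟨a, b, hab, ha1, a', ha⟩ : ∃ a b : G, (∀ x : G, x ≠ 1 → (∃ k : ℕ, orderOf x = p ^ k) →
      IsConj a x ∨ IsConj b x) ∧ a ≠ 1 ∧ ∃ k : ℕ, orderOf a = p ^ k := by
    set X := {c : ConjClasses G // ∃ g : G, ConjClasses.mk g = c ∧ ∃ k : ℕ, orderOf g = p ^ k}
    let o : X := ⟨_, 1, rfl, 0, by simp⟩
    have h4 : ({o}ᶜ : Set X).ncard = 2 := by
      rw [Set.ncard_compl, h3, Set.ncard_singleton]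
    obtain ⟨⟨_, a, rfl, ha⟩, ⟨_, b, rfl, hb⟩, -, h5⟩ := Set.ncard_eq_two.1 h4
    refine ⟨a, b, fun x hx1 hx => ?_, fun h => ?_, ha⟩
    · have : (⟨_, x, rfl, hx⟩ : X) ∈ ({o}ᶜ : Set X) := fun h =>
        hx1 (isConj_one_left.1 (ConjClasses.mk_eq_mk_iff_isConj.1 (congrArg Subtype.val h)))
      rw [h5] at this
      exact this.imp (fun h => (ConjClasses.mk_eq_mk_iff_isConj.1 (congrArg Subtype.val h)).symm)
        fun h => (ConjClasses.mk_eq_mk_iff_isConj.1 (congrArg Subtype.val h)).symm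
    · have : (⟨_, a, rfl, ha⟩ : X) ∈ ({o}ᶜ : Set X) := h5 ▸ Or.inl rfl
      exact this (Subtype.ext (congrArg ConjClasses.mk h))
  have hdiv : p ∣ Nat.card G := (dvd_pow_self p fun h => ha1 (by
    rwa [h, pow_zero, orderOf_eq_one_iff] at ha)).trans (ha ▸ orderOf_dvd_natCard a)
  have key : p ≤ 2 * Nat.card (RC p G) ∨ (p ≤ 2 * Nat.card (RC p G) + 1 ∧ p ≠ 2 ∧
      2 * Nat.card G = p * (p - 1) ∧ ∃ f : G →* affineGroup (ZMod p), Function.Injective f) := by
    by_cases hO : pPrimeCore p G = ⊥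
    · exact core hcore hs hO hdiv hab
    set N := pPrimeCore p G with hN
    have hNp : ¬ p ∣ Nat.card N := not_dvd_card_pPrimeCore p
    have h := core hcore (hs.quotient N) (pPrimeCore_quotient_pPrimeCore p)
      (((Nat.Prime.dvd_mul Fact.out).1 (N.card_mul_index ▸ hdiv)).resolve_left hNp)
      (a := a) (b := b) fun x hx hx' => by
        obtain ⟨x, h1, rfl⟩ := exists_pElement_lift _ (QuotientGroup.mk'_surjective N) hx'
        exact (hab x (fun h => hx (by rw [h, map_one])) h1).imp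
          (MonoidHom.map_isConj (QuotientGroup.mk' N)) (MonoidHom.map_isConj (QuotientGroup.mk' N))
    obtain ⟨F, hF, hF'⟩ := rc_surj (p := p) (QuotientGroup.mk' N) (QuotientGroup.mk'_surjective N)
    have hreg : ∀ n ∈ N, ¬ p ∣ orderOf n := fun n hn h => hNp (h.trans (N.orderOf_dvd_natCard hn))
    obtain ⟨⟨n, hn⟩, hn1⟩ := Subgroup.ne_bot_iff_exists_ne_one.1 hO
    have h1 := (fiber_of_card_le hF (a := ⟨_, n, rfl, hreg n hn⟩)
      (b := ⟨_, 1, rfl, hreg 1 N.one_mem⟩) (fun h => hn1 (Subtype.ext (isConj_one_left.1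
        (ConjClasses.mk_eq_mk_iff_isConj.1 (congrArg Subtype.val h))))) (Subtype.ext (by
          rw [hF', hF']
          exact congrArg ConjClasses.mk ((QuotientGroup.eq_one_iff n).2 hn)))).1
    omega
  refine ⟨by omega, fun h => (key.resolve_left (by omega)).2, fun ⟨h1, h2, _⟩ => ?_⟩
  obtain ⟨H, hH, k, hk⟩ := hs.exists_hall_pPrime
  have h4 := (card_rc_le hs hH ⟨k, hk⟩).trans
    (Nat.card_le_card_of_surjective _ ConjClasses.mk_surjective)
  have h5 := H.card_mul_index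
  rw [hk] at h5
  rcases k with _ | k
  · rw [pow_zero, mul_one] at h5
    exact absurd (h5 ▸ hdiv) hH
  have h6 : 2 * Nat.card H * p ^ k = p - 1 := by
    refine Nat.eq_of_mul_eq_mul_left hp.out.pos ?_
    rw [← h2, ← h5]
    ring
  have h7 : 2 * Nat.card H ≤ p - 1 := h6 ▸ Nat.le_mul_of_pos_right _ (pow_pos hp.out.pos k)
  omega

end Cfsg.Pass3
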